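import Cfsg.Agent.Lib.OreOrth.Cert

/-!
Transvections of size three and four over the field with three elements are good: the second entry of the
commutator has the simple eigenvalue minus one.
-/

set_option autoImplicit false

namespace CfsgLib.OreOrth.Three

open Matrix

section Transfer

variable {K F : Type*} [Field K] [Field F] {ι : Type*} [Fintype ι] [DecidableEq ι]

theorem fpf_map (e : K ≃+* F) {M : Matrix ι ι K} (hM : Fpf M) : Fpf (M.map e) := by
  intro X hd hs hX
  have hr : ∀ A : Matrix ι ι F, (A.map e.symm).map e = A := fun A => by ext i j; simp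
  have h := hM (X.map e.symm) (fun i => by simp [hd i]) (by
    ext i j
    simpa using congrArg e.symm (congrFun (congrFun hs i) j)) (by
    refine Matrix.map_injective e.injective ?_
    show (M * X.map e.symm * Mᵀ).map e = (X.map e.symm).map e
    rw [Matrix.map_mul, Matrix.map_mul, hr, transpose_map]
    exact hX)
  rw [← hr X, h, Matrix.map_zero _ (map_zero e)]

theorem noOne_map (e : K ≃+* F) {M : Matrix ι ι K} (hM : NoOne M) : NoOne (M.map e) := by
  intro v hv
  have h := hM (e.symm ∘ v) (by
    funext i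
    apply e.injective
    have e1 := RingHom.map_mulVec (e : K →+* F) M (e.symm ∘ v) i
    simp only [RingEquiv.coe_toRingHom] at e1
    rw [e1]
    simp only [Function.comp_apply, RingEquiv.apply_symm_apply]
    rw [show (⇑e ∘ ⇑e.symm ∘ v) = v from _root_.funext fun j => e.apply_symm_apply (v j)]
    exact congrFun hv i)
  funext i
  simpa using congrFun h i

/-- `Good` is transported along an isomorphism of fields. -/
theorem good_map (e : K ≃+* F) {A : Matrix ι ι K} (hA : Good A) : Good (A.map e) := by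
  obtain ⟨b, h, hAe, hb, hh, h1, h2, h3⟩ := hA
  let c : GL ι K →* GL ι F := Units.map ((e : K →+* F).mapMatrix.toMonoidHom)
  have hd : ∀ x : GL ι K, IsSquare (x : Matrix ι ι K).det → IsSquare ((c x : GL ι F) : Matrix ι ι F).det :=
    fun x hx => by
      show IsSquare ((e : K →+* F).mapMatrix (x : Matrix ι ι K)).det
      rw [← RingHom.map_det]
      exact hx.map _
  refine ⟨c b, c h, ?_, hd b hb, hd h hh, fpf_map e h1, ?_, fun h2' => ?_⟩
  · rw [← map_inv, ← map_inv, ← map_mul, ← map_mul, ← map_mul, hAe]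
    rfl
  · show Fpf ((h : Matrix ι ι K).map e)ᵀ
    rw [← transpose_map]
    exact fpf_map e h2
  · have hK : (2 : K) ≠ 0 := fun h0 => h2' (by rw [← map_ofNat e 2, h0, map_zero])
    refine ⟨noOne_map e (h3 hK).1, ?_⟩
    show NoOne ((h : Matrix ι ι K).map e)ᵀ
    rw [← transpose_map]
    exact noOne_map e (h3 hK).2

end Transfer

local instance : Fact (Nat.Prime 3) := ⟨Nat.prime_three⟩

/-- The alternating matrix of size three with given upper entries. -/
def alt3 (x : Fin 3 → ZMod 3) : Matrix (Fin 3) (Fin 3) (ZMod 3) :=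
  !![0, x 0, x 1; -x 0, 0, x 2; -x 1, -x 2, 0]

/-- The alternating matrix of size four with given upper entries. -/
def alt4 (x : Fin 6 → ZMod 3) : Matrix (Fin 4) (Fin 4) (ZMod 3) :=
  !![0, x 0, x 1, x 2; -x 0, 0, x 3, x 4; -x 1, -x 3, 0, x 5; -x 2, -x 4, -x 5, 0]

theorem fpf_of_alt3 (M : Matrix (Fin 3) (Fin 3) (ZMod 3))
    (h : ∀ x, M * alt3 x * Mᵀ = alt3 x → x = 0) : Fpf M := by
  intro X hd hs hX
  have e : ∀ i j, X j i = -X i j := fun i j => congrFun (congrFun hs i) j
  have he : X = alt3 ![X 0 1, X 0 2, X 1 2] := by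
    ext i j
    fin_cases i <;> fin_cases j <;> simp [alt3, hd, ← e]
  rw [he] at hX ⊢
  rw [h _ hX]
  ext i j
  fin_cases i <;> fin_cases j <;> simp [alt3]

theorem fpf_of_alt4 (M : Matrix (Fin 4) (Fin 4) (ZMod 3))
    (h : ∀ x, M * alt4 x * Mᵀ = alt4 x → x = 0) : Fpf M := by
  intro X hd hs hX
  have e : ∀ i j, X j i = -X i j := fun i j => congrFun (congrFun hs i) j
  have he : X = alt4 ![X 0 1, X 0 2, X 0 3, X 1 2, X 1 3, X 2 3] := by
    ext i j
    fin_cases i <;> fin_cases j <;> simp [alt4, hd, ← e]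
  rw [he] at hX ⊢
  rw [h _ hX]
  ext i j
  fin_cases i <;> fin_cases j <;> simp [alt4]

/-- The first entry of the commutator in size three. -/
def bThree : GL (Fin 3) (ZMod 3) where
  val := !![2, 0, 0; 0, 2, 1; 0, 1, 0]
  inv := !![2, 0, 0; 0, 0, 1; 0, 1, 1]
  val_inv := by decide +kernel
  inv_val := by decide +kernel

/-- The second entry of the commutator in size three. -/
def hThree : GL (Fin 3) (ZMod 3) where
  val := !![2, 2, 1; 0, 0, 2; 0, 2, 2]
  inv := !![2, 1, 1; 0, 1, 2; 0, 2, 0]
  val_inv := by decide +kernel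
  inv_val := by decide +kernel

/-- The first entry of the commutator in size four. -/
def bFour : GL (Fin 4) (ZMod 3) where
  val := !![1, 1, 0, 0; 0, 1, 0, 0; 0, 2, 1, 0; 0, 0, 0, 1]
  inv := !![1, 2, 0, 0; 0, 1, 0, 0; 0, 1, 1, 0; 0, 0, 0, 1]
  val_inv := by decide +kernel
  inv_val := by decide +kernel

/-- The second entry of the commutator in size four. -/
def hFour : GL (Fin 4) (ZMod 3) where
  val := !![2, 2, 2, 1; 0, 2, 0, 0; 1, 1, 0, 0; 1, 0, 1, 1]
  inv := !![0, 1, 1, 0; 0, 2, 0, 0; 1, 1, 2, 2; 2, 1, 0, 2]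
  val_inv := by decide +kernel
  inv_val := by decide +kernel

theorem good_transvection_zmod : Good (!![(1 : ZMod 3), 1, 0; 0, 1, 0; 0, 0, 1]) :=
  ⟨bThree, hThree, by decide +kernel, ⟨1, by decide +kernel⟩, ⟨1, by decide +kernel⟩,
    fpf_of_alt3 _ (by decide +kernel), fpf_of_alt3 _ (by decide +kernel),
    fun _ => ⟨by unfold NoOne; decide +kernel, by unfold NoOne; decide +kernel⟩⟩

theorem good_transvection_four_zmod : Good (1 + Matrix.single 0 1 1 : Matrix (Fin 4) (Fin 4) (ZMod 3)) :=
  ⟨bFour, hFour, by decide +kernel, ⟨1, by decide +kernel⟩, ⟨1, by decide +kernel⟩,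
    fpf_of_alt4 _ (by decide +kernel), fpf_of_alt4 _ (by decide +kernel),
    fun _ => ⟨by unfold NoOne; decide +kernel, by unfold NoOne; decide +kernel⟩⟩

variable {F : Type*} [Field F] [Fintype F]

/-- The transvection of size three over three elements is good. -/
theorem good_transvection (h3 : Fintype.card F = 3) : Good (!![(1:F),1,0;0,1,0;0,0,1]) := by
  obtain ⟨φ, hφ⟩ := exists_zmod_hom (F := F) 3 h3
  have h := good_map (RingEquiv.ofBijective φ hφ) good_transvection_zmod
  convert h using 1
  ext i j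
  fin_cases i <;> fin_cases j <;> simp

/-- The transvection of size four over three elements is good. -/
theorem good_transvection_four (h3 : Fintype.card F = 3) :
    Good (1 + Matrix.single 0 1 1 : Matrix (Fin 4) (Fin 4) F) := by
  obtain ⟨φ, hφ⟩ := exists_zmod_hom (F := F) 3 h3
  have h := good_map (RingEquiv.ofBijective φ hφ) good_transvection_four_zmod
  convert h using 1
  ext i j
  fin_cases i <;> fin_cases j <;> simp [Matrix.single_apply]

end CfsgLib.OreOrth.Three
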