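import Cfsg.Agent.Lib.OreOrth.Three.Factors

/-!
The polynomial of the certificates over the field with three elements is admissible.
-/

set_option autoImplicit false
set_option maxRecDepth 100000

namespace CfsgLib.OreOrth.Three

open Polynomial

/-- Product of the monic lists. -/
def prodL : List (List Z) → List Z
  | [] => [1]
  | f :: ps => mulL (f ++ [1]) (prodL ps)

theorem prodP_eq {F : Type*} [Field F] (φ : Z →+* F) :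
    ∀ ps : List (List Z), prodP φ ps = (polyL (prodL ps)).map φ
  | [] => by simp [prodP, prodL, polyL]
  | f :: ps => by
    have h := prodP_eq φ ps
    simp only [prodP] at h
    rw [prodP, List.map_cons, List.prod_cons, h, prodL, polyL_mulL, Polynomial.map_mul]

theorem prodP_append {F : Type*} [Field F] (φ : Z →+* F) (ps qs : List (List Z)) :
    prodP φ (ps ++ qs) = prodP φ ps * prodP φ qs := by
  simp [prodP, List.map_append, List.prod_append]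

theorem coprime_psP_psQ {F : Type*} [Field F] (φ : Z →+* F) : IsCoprime (prodP φ psP) (prodP φ psQ) := by
  rw [prodP_eq, prodP_eq]
  obtain ⟨k, hk⟩ : ∃ k, addL (mulL ([1,0,0,1,2,2,0,1,0,2,2] : List Z) (prodL psP)) (mulL ([2,1,1,1,0,0,0,0,0,2,0,0,1,2,1,0,0,0,2,2,1,1,1,0,2,0,2,0,2,0,2,1,0,0,0,0,0,2,2,2,0,0,1,0,0,1,1,1,2,2,0,2,2,1,2,2,1,1,1,1,2,0,0,2,0,0,2,2,2,1] : List Z) (prodL psQ)) =
      1 :: List.replicate k 0 := ⟨81, by decide +kernel⟩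
  exact (isCoprime_of_bezout _ _ _ _ k hk).map (Polynomial.mapRingHom φ)

theorem admissible_ps {F : Type*} [Field F] (φ : Z →+* F) :
    IsCoprime (prodP φ psP * prodP φ psQ) (prodP φ psP * prodP φ psQ).reverse ∧
      (prodP φ psP * prodP φ psQ).eval 1 ≠ 0 := by
  have e1 : prodL (psP ++ psQ) = ([2,2,2,1,2,2,1,0,1,0,0,0,2,2,1,2,1,0,2,1,1,2,0,0,2,2,2,1,0,2,2,0,0,0,1,1,1,1,2,2,2,2,1,1,1,0,2,0,1,1,0,2,1,2,2,1,1,1,1,2,0,2,1,0,2,1,1,2,2,0,0,0,1,2,2,1,2,1,1,1,0,1,0] : List Z) ++ [1] := by decide +kernel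
  have e2 : addL (mulL ([2,2,0,2,1,1,0,0,2,1,1,1,1,2,1,0,0,2,0,1,2,1,2,2,2,0,1,2,2,1,1,0,1,0,1,2,0,0,0,1,1,2,1,0,2,0,1,0,2,1,1,2,1,1,0,0,1,2,2,1,1,0,0,0,0,2,0,2,2,1,1,0,1,0,0,0,1,0,0,2,1,0,2] : List Z) (([2,2,2,1,2,2,1,0,1,0,0,0,2,2,1,2,1,0,2,1,1,2,0,0,2,2,2,1,0,2,2,0,0,0,1,1,1,1,2,2,2,2,1,1,1,0,2,0,1,1,0,2,1,2,2,1,1,1,1,2,0,2,1,0,2,1,1,2,2,0,0,0,1,2,2,1,2,1,1,1,0,1,0] : List Z) ++ [1])) (mulL ([0,1,1,1,2,0,2,0,0,1,1,1,1,2,2,0,0,2,1,2,0,2,0,2,2,0,1,0,2,1,2,0,1,2,1,2,0,1,0,0,1,1,2,0,2,1,2,0,1,0,1,1,2,1,2,2,2,2,2,1,0,2,2,0,0,0,2,1,2,1,0,2,0,2,0,1,1,2,2,0,0,1,2] : List Z) (([2,2,2,1,2,2,1,0,1,0,0,0,2,2,1,2,1,0,2,1,1,2,0,0,2,2,2,1,0,2,2,0,0,0,1,1,1,1,2,2,2,2,1,1,1,0,2,0,1,1,0,2,1,2,2,1,1,1,1,2,0,2,1,0,2,1,1,2,2,0,0,0,1,2,2,1,2,1,1,1,0,1,0] : List Z) ++ [1]).reverse) =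
      1 :: List.replicate 165 0 := by decide +kernel
  have e3 : (([2,2,2,1,2,2,1,0,1,0,0,0,2,2,1,2,1,0,2,1,1,2,0,0,2,2,2,1,0,2,2,0,0,0,1,1,1,1,2,2,2,2,1,1,1,0,2,0,1,1,0,2,1,2,2,1,1,1,1,2,0,2,1,0,2,1,1,2,2,0,0,0,1,2,2,1,2,1,1,1,0,1,0] : List Z) ++ [1]).sum ≠ 0 := by decide +kernel
  have e4 : (1 : Z) ≠ 0 := by decide +kernel
  have : Fact (Nat.Prime 3) := ⟨Nat.prime_three⟩
  rw [← prodP_append, prodP_eq, e1]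
  exact admissible_of_bezout φ _ _ _ _ _ e4 e2 e3

end CfsgLib.OreOrth.Three
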