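import Cfsg.Agent.Lib.OreOrth.Three.Merge

/-!
The covering over the field with three elements: every list of invariant blocks of determinant one, apart from
the few small exceptions, is accepted by the admissible polynomial.
-/

set_option autoImplicit false
set_option maxRecDepth 100000

namespace CfsgLib.OreOrth.Three

open Polynomial Module

variable {F : Type*} [Field F] {φ : Z →+* F}

theorem replicate_add' {α : Type*} {e : ℕ} (a b : ℕ) (x : α) (h : e = a + b) :
    List.replicate e x = List.replicate a x ++ List.replicate b x := by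
  rw [h, List.replicate_add]

theorem key_transvection_five : J2 :: List.replicate 3 one ∈ keys := by decide +kernel

/-- Leftover scalars `-1` and blocks of size two. -/
theorem oka_neg_case (hφ : Function.Bijective φ) (B M : List (List Z)) (g : List Z) (a e : ℕ)
    (hB : ∀ x ∈ B, 3 ≤ x.length ∧ sgn x = 1) (hM : ∀ x ∈ M, 2 ≤ x.length ∧ sgn x = -1) (hc : Coh M)
    (hg : 1 ≤ a → g.length = 2 ∧ sgn g = 1 ∧ ∀ x ∈ M, x.length ≠ 2) (hpar : Even (M.length + e))
    (hex : B ≠ [] ∨ M ≠ [] ∨ (2 ≤ a ∨ (a = 1 ∧ 2 ≤ e) ∨ 6 ≤ e ∨ (a = 0 ∧ e = 0))) :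
    OKA φ (B ++ M ++ List.replicate a g ++ List.replicate e neg) := by
  have hBo := oka_singles hφ hB
  rcases le_or_gt e M.length with hle | hgt
  · -- every scalar is paired
    have hMe := oka_minus hφ M e hc hM hle hpar
    by_cases ha : a = 1
    · subst ha
      obtain ⟨gl, gs, hne⟩ := hg le_rfl
      rcases B with _ | ⟨h, B⟩
      · rcases M with _ | ⟨m, M⟩
        · simp at hle
          subst hle
          simp at hex
        · obtain ⟨hm2, hms⟩ := hM m List.mem_cons_self
          rcases e with _ | e
          · rcases M with _ | ⟨m', M⟩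
            · obtain ⟨k, hk⟩ := hpar
              simp at hk
              omega
            · obtain ⟨hm2', hms'⟩ := hM m' (by simp)
              have h1 := ((merge_minus hφ ⟨hm2, hms⟩ (Or.inr ⟨hm2', hms'⟩) (hc m (by simp) m' (by simp))).2.2
                (hne m (by simp)) (hne m' (by simp))).2 g gl gs
              have h2 := oka_minus hφ M 0 (fun x hx y hy => hc x (by simp [hx]) y (by simp [hy]))
                (fun x hx => hM x (by simp [hx])) (by simp) (by
                  obtain ⟨k, hk⟩ := hpar
                  exact ⟨k - 1, by simp at hk; omega⟩)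
              refine oka_perm (OK.append h1 h2) (List.perm_iff_count.2 fun x => ?_)
              simp [List.count_cons, List.count_append] <;> omega
          · have h1 := ((merge_minus hφ ⟨hm2, hms⟩ (Or.inl rfl)
              (fun e' => by simp at e'; omega)).2.2 (hne m (by simp)) (by decide)).2 g gl gs
            have h2 := oka_minus hφ M e (fun x hx y hy => hc x (by simp [hx]) y (by simp [hy]))
              (fun x hx => hM x (by simp [hx])) (by simpa using hle) (by
                obtain ⟨k, hk⟩ := hpar
                exact ⟨k - 1, by simp at hk; omega⟩)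
            refine oka_perm (OK.append h1 h2) (List.perm_iff_count.2 fun x => ?_)
            simp [List.count_cons, List.count_append, List.count_replicate] <;> (try split_ifs) <;> omega
      · obtain ⟨hl, hs⟩ := hB h List.mem_cons_self
        have h1 := merge_two hφ hl hs gl gs
        have h2 := oka_singles hφ (B := B) fun x hx => hB x (List.mem_cons_of_mem _ hx)
        refine oka_perm (OK.append (OK.append h1 h2) hMe) (List.perm_iff_count.2 fun x => ?_)
        simp [List.count_cons, List.count_append] <;> omega
    · have hG : OKA φ (List.replicate a g) := by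
        rcases Nat.eq_zero_or_pos a with rfl | hp
        · exact ok_nil _
        · exact oka_twos (hg hp).1 (hg hp).2.1 a (by omega)
      refine oka_perm (OK.append (OK.append hBo hMe) hG) (List.perm_iff_count.2 fun x => ?_)
      simp [List.count_append] <;> omega
  · -- scalars are left over
    obtain ⟨r, rfl⟩ : ∃ r, e = M.length + r := ⟨e - M.length, by omega⟩
    have hr : Even r := by
      obtain ⟨k, hk⟩ := hpar
      exact ⟨k - M.length, by omega⟩
    have hMe := oka_minus hφ M M.length hc hM le_rfl ⟨M.length, rfl⟩
    by_cases hgood : 1 ≤ a ∨ 6 ≤ r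
    · have hS : OKA φ (List.replicate a g ++ List.replicate r neg) := by
        rcases Nat.eq_zero_or_pos a with rfl | hp
        · exact oka_negs r (hgood.resolve_left (by omega)) hr
        · refine oka_twos_neg (hg hp).1 (hg hp).2.1 a r hp hr ?_
          obtain ⟨k, rfl⟩ := hr
          omega
      refine oka_perm (OK.append (OK.append hBo hMe) hS) (List.perm_iff_count.2 fun x => ?_)
      simp [List.count_append, List.count_replicate] <;> (try split_ifs) <;> omega
    · obtain rfl : a = 0 := by omega
      have hr24 : r = 2 ∨ r = 4 := by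
        obtain ⟨k, rfl⟩ := hr
        omega
      rcases M with _ | ⟨m, M⟩
      · rcases B with _ | ⟨h, B⟩
        · simp at hex
          omega
        · obtain ⟨hl, hs⟩ := hB h List.mem_cons_self
          have h1 := merge_negs hφ hl hs hr24
          have h2 := oka_singles hφ (B := B) fun x hx => hB x (List.mem_cons_of_mem _ hx)
          refine oka_perm (OK.append h1 h2) (List.perm_iff_count.2 fun x => ?_)
          simp [List.count_cons, List.count_append, List.count_replicate] <;> (try split_ifs) <;> omega
      · obtain ⟨hm2, hms⟩ := hM m List.mem_cons_self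
        have h1 := merge_minus_negs hφ hm2 hms (r := r + 1) (by omega)
        have h2 := oka_minus hφ M M.length (fun x hx y hy => hc x (by simp [hx]) y (by simp [hy]))
          (fun x hx => hM x (by simp [hx])) le_rfl ⟨M.length, rfl⟩
        refine oka_perm (OK.append (OK.append hBo h1) h2) (List.perm_iff_count.2 fun x => ?_)
        simp [List.count_cons, List.count_append, List.count_replicate] <;> (try split_ifs) <;> omega

/-- Leftover scalars `1` and blocks of size two. -/
theorem oka_one_case (hφ : Function.Bijective φ) (B M : List (List Z)) (g : List Z) (a e : ℕ)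
    (hB : ∀ x ∈ B, 3 ≤ x.length ∧ sgn x = 1) (hM : ∀ x ∈ M, 2 ≤ x.length ∧ sgn x = -1) (hc : Coh M)
    (hg : 1 ≤ a → g.length = 2 ∧ sgn g = 1 ∧ ∀ x ∈ M, x.length ≠ 2) (hpar : Even M.length) (he : 1 ≤ e)
    (hex : B ≠ [] ∨ M ≠ [] ∨ (2 ≤ a ∨ (a = 1 ∧ (g ≠ J2 ∨ 3 ≤ e)) ∨ 3 ≤ e)) :
    OKA φ (B ++ M ++ List.replicate a g ++ List.replicate e one) := by
  have hBo := oka_singles hφ hB
  have hMo : OKA φ M := by
    have := oka_minus hφ M 0 hc hM (Nat.zero_le _) (by simpa using hpar)
    simpa using this
  by_cases hgood : 2 ≤ a ∨ (a = 0 ∧ 3 ≤ e) ∨ (a = 1 ∧ (g ≠ J2 ∨ 4 ≤ e))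
  · have hS : OKA φ (List.replicate a g ++ List.replicate e one) := by
      rcases Nat.eq_zero_or_pos a with rfl | hp
      · exact OKA.of_P (ok_ones psP psP_small (by omega))
      · refine oka_twos_one (hg hp).1 (hg hp).2.1 a e hp he ?_
        rcases hgood with h | ⟨h, _⟩ | ⟨_, h⟩
        · exact Or.inl h
        · omega
        · exact Or.inr h
    refine oka_perm (OK.append (OK.append hBo hMo) hS) (List.perm_iff_count.2 fun x => ?_)
    simp [List.count_append] <;> omega
  have hbad : (a = 0 ∧ e ≤ 2) ∨ (a = 1 ∧ g = J2 ∧ e ≤ 3) := by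
    obtain ⟨n1, n23⟩ := not_or.1 hgood
    obtain ⟨n2, n3⟩ := not_or.1 n23
    obtain h0 | h1 : a = 0 ∨ a = 1 := by omega
    · exact Or.inl ⟨h0, Nat.le_of_lt_succ (Nat.lt_of_not_le fun h => n2 ⟨h0, h⟩)⟩
    · refine Or.inr ⟨h1, not_not.1 fun h => n3 ⟨h1, Or.inl h⟩, ?_⟩
      exact Nat.le_of_lt_succ (Nat.lt_of_not_le fun h => n3 ⟨h1, Or.inr h⟩)
  rcases B with _ | ⟨h, B⟩
  · rcases M with _ | ⟨m, M⟩
    · rcases hbad with ⟨rfl, h2⟩ | ⟨rfl, rfl, h3⟩
      · simp at hex
        omega
      · simp at hex
        obtain rfl : e = 3 := by omega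
        exact oka_key key_transvection_five
    · rcases M with _ | ⟨m', M⟩
      · simp at hpar
      · obtain ⟨hm2, hms⟩ := hM m (by simp)
        obtain ⟨hm2', hms'⟩ := hM m' (by simp)
        obtain ⟨k1, k2, k3⟩ := merge_minus hφ ⟨hm2, hms⟩ (Or.inr ⟨hm2', hms'⟩) (hc m (by simp) m' (by simp))
        have h2 : OKA φ M := by
          have := oka_minus hφ M 0 (fun x hx y hy => hc x (by simp [hx]) y (by simp [hy]))
            (fun x hx => hM x (by simp [hx])) (by simp) (by
              obtain ⟨k, hk⟩ := hpar
              exact ⟨k - 1, by simp at hk; omega⟩)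
          simpa using this
        rcases hbad with ⟨rfl, he2⟩ | ⟨rfl, rfl, he3⟩
        · obtain rfl | rfl : e = 1 ∨ e = 2 := by omega
          · refine oka_perm (OK.append k1 h2) (List.perm_iff_count.2 fun x => ?_)
            simp [List.count_cons, List.count_append] <;> omega
          · refine oka_perm (OK.append k2 h2) (List.perm_iff_count.2 fun x => ?_)
            simp [List.count_cons, List.count_append] <;> omega
        · have k := (k3 ((hg le_rfl).2.2 m (by simp)) ((hg le_rfl).2.2 m' (by simp))).1 e he he3
          refine oka_perm (OK.append k h2) (List.perm_iff_count.2 fun x => ?_)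
          simp [List.count_cons, List.count_append] <;> omega
  · obtain ⟨hl, hs⟩ := hB h List.mem_cons_self
    have hB' := oka_singles hφ (B := B) fun x hx => hB x (List.mem_cons_of_mem _ hx)
    rcases hbad with ⟨rfl, he2⟩ | ⟨rfl, rfl, he3⟩
    · have k := merge_ones hφ hl hs (e := e) (by omega)
      refine oka_perm (OK.append (OK.append k hB') hMo) (List.perm_iff_count.2 fun x => ?_)
      simp [List.count_cons, List.count_append] <;> omega
    · have k := merge_transvection hφ hl hs he he3
      refine oka_perm (OK.append (OK.append k hB') hMo) (List.perm_iff_count.2 fun x => ?_)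
      simp [List.count_cons, List.count_append] <;> omega

theorem sgn_cases {g : List Z} (h : sgn g ≠ 0) : sgn g = 1 ∨ sgn g = -1 := by
  revert h
  generalize sgn g = a
  revert a
  decide

theorem perm_four (L : List (List Z)) (h : ∀ g ∈ L, g ≠ [] ∧ (sgn g = 1 ∨ sgn g = -1)) :
    L.Perm ((L.filter fun g => decide (3 ≤ g.length ∧ sgn g = 1)) ++
      (L.filter fun g => decide (2 ≤ g.length ∧ sgn g = -1)) ++
      (L.filter fun g => decide (g.length = 2 ∧ sgn g = 1)) ++ (L.filter fun g => decide (g.length = 1))) := by
  induction L with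
  | nil => simp
  | cons g L ih =>
    obtain ⟨hne, hs⟩ := h g List.mem_cons_self
    have hl : 0 < g.length := List.length_pos_iff.2 hne
    have ih := List.perm_iff_count.1 (ih fun x hx => h x (List.mem_cons_of_mem _ hx))
    refine List.perm_iff_count.2 fun x => ?_
    have hx := ih x
    obtain h1 | h2 | h3 : g.length = 1 ∨ g.length = 2 ∨ 3 ≤ g.length := by omega
    · rw [List.filter_cons_of_neg, List.filter_cons_of_neg, List.filter_cons_of_neg, List.filter_cons_of_pos]
      · simp only [List.count_append, List.count_cons] at hx ⊢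
        omega
      all_goals simp [h1]
    · rcases hs with hs | hs
      · rw [List.filter_cons_of_neg, List.filter_cons_of_neg, List.filter_cons_of_pos, List.filter_cons_of_neg]
        · simp only [List.count_append, List.count_cons] at hx ⊢
          omega
        all_goals first
          | (simp [h2, hs]; done)
          | (simp [h2, hs]; decide)
      · rw [List.filter_cons_of_neg, List.filter_cons_of_pos, List.filter_cons_of_neg, List.filter_cons_of_neg]
        · simp only [List.count_append, List.count_cons] at hx ⊢
          omega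
        all_goals first
          | (simp [h2, hs]; done)
          | (simp [h2, hs]; decide)
    · have n1 : g.length ≠ 1 := by omega
      have n2 : g.length ≠ 2 := by omega
      rcases hs with hs | hs
      · rw [List.filter_cons_of_pos, List.filter_cons_of_neg, List.filter_cons_of_neg, List.filter_cons_of_neg]
        · simp only [List.count_append, List.count_cons] at hx ⊢
          omega
        all_goals first
          | (simp [h3, n1, n2, hs]; done)
          | (simp +decide [h3, n1, n2, hs]; done)
      · rw [List.filter_cons_of_neg, List.filter_cons_of_pos, List.filter_cons_of_neg, List.filter_cons_of_neg]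
        · simp only [List.count_append, List.count_cons] at hx ⊢
          omega
        all_goals first
          | (simp [h3, n1, n2, hs]; omega)
          | (simp [h3, n1, n2, hs]; done)
          | (simp +decide [h3, n1, n2, hs]; done)
          | (simp +decide [n1, n2, hs]; omega)

theorem prod_sgn_replicate (a : ℕ) (g : List Z) : ((List.replicate a g).map sgn).prod = sgn g ^ a := by
  rw [List.map_replicate, List.prod_replicate]

/-- Every coherent list of blocks of determinant one is accepted, with four small exceptions. -/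
theorem oka_list (hφ : Function.Bijective φ) (L : List (List Z)) (hne : ∀ g ∈ L, g ≠ [] ∧ sgn g ≠ 0)
    (hc : Coh L) (hdet : (L.map sgn).prod = 1) (hn : 3 ≤ dimL L)
    (h4 : ¬ L.Perm (List.replicate 4 neg)) :
    OKA φ L ∨ L.Perm [J2, one] ∨ L.Perm [J2, one, one] := by
  have hne' : ∀ g ∈ L, g ≠ [] ∧ (sgn g = 1 ∨ sgn g = -1) := fun g hg => ⟨(hne g hg).1, sgn_cases (hne g hg).2⟩
  have hp := perm_four L hne'
  set B := L.filter fun g => decide (3 ≤ g.length ∧ sgn g = 1) with hBdef
  set M := L.filter fun g => decide (2 ≤ g.length ∧ sgn g = -1) with hMdef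
  set G := L.filter fun g => decide (g.length = 2 ∧ sgn g = 1) with hGdef
  set E := L.filter fun g => decide (g.length = 1) with hEdef
  have hB : ∀ x ∈ B, 3 ≤ x.length ∧ sgn x = 1 := fun x hx => by simpa [hBdef] using (List.mem_filter.1 hx).2
  have hM : ∀ x ∈ M, 2 ≤ x.length ∧ sgn x = -1 := fun x hx => by simpa [hMdef] using (List.mem_filter.1 hx).2
  have hG : ∀ x ∈ G, x ∈ L ∧ x.length = 2 ∧ sgn x = 1 := fun x hx =>
    ⟨(List.mem_filter.1 hx).1, by simpa [hGdef] using (List.mem_filter.1 hx).2⟩
  have hE : ∀ x ∈ E, x ∈ L ∧ x.length = 1 := fun x hx =>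
    ⟨(List.mem_filter.1 hx).1, by simpa [hEdef] using (List.mem_filter.1 hx).2⟩
  have hcM : Coh M := fun x hx y hy => hc x (List.mem_filter.1 hx).1 y (List.mem_filter.1 hy).1
  obtain ⟨g, hG'⟩ : ∃ g, G = List.replicate G.length g := by
    rcases hGe : G with _ | ⟨g, G'⟩
    · exact ⟨[], rfl⟩
    · have hg := hG g (by rw [hGe]; simp)
      exact ⟨g, List.eq_replicate_iff.2 ⟨rfl, fun x hx => by
        have := hG x (by rw [hGe]; exact hx)
        exact hc x this.1 g hg.1 (this.2.1.trans hg.2.1.symm)⟩⟩
  set a := G.length with ha
  have hg : 1 ≤ a → g.length = 2 ∧ sgn g = 1 ∧ ∀ x ∈ M, x.length ≠ 2 := by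
    intro h1
    have hgG : g ∈ G := by
      rw [hG', List.mem_replicate]
      exact ⟨by omega, rfl⟩
    obtain ⟨gL, gl, gs⟩ := hG g hgG
    refine ⟨gl, gs, fun x hx e => ?_⟩
    have h1 := hc g gL x (List.mem_filter.1 hx).1 (gl.trans e.symm)
    have h2 := (hM x hx).2
    rw [← h1, gs] at h2
    exact absurd h2 (by decide)
  obtain ⟨y, hy, hE'⟩ : ∃ y, (y = neg ∨ (y = one ∧ 1 ≤ E.length)) ∧ E = List.replicate E.length y := by
    rcases hEe : E with _ | ⟨y, E'⟩
    · exact ⟨neg, Or.inl rfl, rfl⟩
    · have hyE := hE y (by rw [hEe]; simp)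
      refine ⟨y, ?_, List.eq_replicate_iff.2 ⟨rfl, fun x hx => by
        have := hE x (by rw [hEe]; exact hx)
        exact hc x this.1 y hyE.1 (this.2.trans hyE.2.symm)⟩⟩
      rcases (hne' y hyE.1).2 with h | h
      · exact Or.inr ⟨eq_one_of_sgn hyE.2 h, by simp⟩
      · exact Or.inl (eq_neg_of_sgn hyE.2 h)
  set e := E.length with hedef
  rw [hG', hE'] at hp
  have hsgn : (sgn y) ^ e * (-1) ^ M.length = 1 := by
    have h := (hp.map sgn).prod_eq
    rw [hdet, List.map_append, List.map_append, List.map_append, List.prod_append, List.prod_append,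
      List.prod_append, prod_sgn_replicate, prod_sgn_replicate] at h
    have hb : (B.map sgn).prod = 1 := List.prod_eq_one fun z hz => by
      obtain ⟨x, hx, rfl⟩ := List.mem_map.1 hz
      exact (hB x hx).2
    have hm : (M.map sgn).prod = (-1) ^ M.length := by
      rw [show M.map sgn = List.replicate M.length (-1 : Z) from List.eq_replicate_iff.2 ⟨List.length_map ..,
        fun z hz => by
          obtain ⟨x, hx, rfl⟩ := List.mem_map.1 hz
          exact (hM x hx).2⟩, List.prod_replicate]
    have hga : sgn g ^ a = 1 := by
      rcases Nat.eq_zero_or_pos a with h0 | h0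
      · rw [h0, pow_zero]
      · rw [(hg h0).2.1, one_pow]
    rw [hb, hm, hga, one_mul, mul_one] at h
    rw [mul_comm]
    exact h.symm
  have hdim : ∀ {L L' : List (List Z)}, L.Perm L' → dimL L = dimL L' := by
    intro L L' h
    induction h with
    | nil => rfl
    | cons x _ ih => simp [dimL, ih]
    | swap x y l => simp [dimL]; omega
    | trans _ _ i1 i2 => exact i1.trans i2
  rcases hy with rfl | ⟨rfl, he1⟩
  · -- minus one
    have hpar : Even (M.length + e) := by
      rw [show sgn neg = -1 by decide, ← pow_add, neg_one_pow_eq_one_iff_even (by decide)] at hsgn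
      rwa [add_comm]
    by_cases hex : B ≠ [] ∨ M ≠ [] ∨ (2 ≤ a ∨ (a = 1 ∧ 2 ≤ e) ∨ 6 ≤ e ∨ (a = 0 ∧ e = 0))
    · exact Or.inl (oka_perm (oka_neg_case hφ B M g a e hB hM hcM hg hpar hex) hp.symm)
    · simp only [not_or, ne_eq, not_not] at hex
      obtain ⟨hBn, hMn, ha2, hae, he6, hae0⟩ := hex
      rw [hBn, hMn, List.nil_append, List.nil_append] at hp
      rw [hMn] at hpar
      obtain ⟨k, hk⟩ := hpar
      simp at hk
      have hd := hdim hp
      obtain h0 | h1 : a = 0 ∨ a = 1 := by omega
      · obtain he | he : e = 2 ∨ e = 4 := by omega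
        · rw [h0, he] at hd
          simp [dimL] at hd
          omega
        · rw [h0, he] at hp
          exact absurd hp h4
      · have he : e = 0 := by omega
        rw [h1, he] at hd
        simp [dimL, (hg (by omega)).1] at hd
        omega
  · -- plus one
    have hpar : Even M.length := by
      rw [show sgn one = 1 by decide, one_pow, one_mul, neg_one_pow_eq_one_iff_even (by decide)] at hsgn
      exact hsgn
    by_cases hex : B ≠ [] ∨ M ≠ [] ∨ (2 ≤ a ∨ (a = 1 ∧ (g ≠ J2 ∨ 3 ≤ e)) ∨ 3 ≤ e)
    · exact Or.inl (oka_perm (oka_one_case hφ B M g a e hB hM hcM hg hpar he1 hex) hp.symm)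
    · simp only [not_or, ne_eq, not_not, not_and] at hex
      obtain ⟨hBn, hMn, ha2, hgJ, he3⟩ := hex
      rw [hBn, hMn, List.nil_append, List.nil_append] at hp
      have hd := hdim hp
      obtain h0 | h1 : a = 0 ∨ a = 1 := by omega
      · obtain he | he : e = 1 ∨ e = 2 := by omega
        · rw [h0, he] at hd
          simp [dimL] at hd
          omega
        · rw [h0, he] at hd
          simp [dimL] at hd
          omega
      · have hgJ' := (hgJ h1).1
        rw [h1, hgJ'] at hp
        obtain he | he : e = 1 ∨ e = 2 := by omega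
        · rw [he] at hp
          exact Or.inr (Or.inl hp)
        · rw [he] at hp
          exact Or.inr (Or.inr hp)

end CfsgLib.OreOrth.Three
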