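import Cfsg.Agent.Lib.OreOrth.Polys

/-!
Block sums of companion blocks over the field with three elements as explicit matrices, and a fast check of
commutator certificates for them with base three numerals.
-/

set_option autoImplicit false

namespace CfsgLib.OreOrth.Three

open Polynomial Matrix

/-- The coefficient field. -/
abbrev Z := ZMod 3

/-- Total size of a list of blocks. -/
def dimL : List (List Z) → ℕ
  | [] => 0
  | g :: L => g.length + dimL L

/-- Entry of the companion block of a coefficient list. -/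
def compE (g : List Z) (i j : ℕ) : Z :=
  if j + 1 < g.length then (if i = j + 1 then 1 else 0) else -g.getD i 0

/-- Entry of a block diagonal sum of companion blocks. -/
def ent : List (List Z) → ℕ → ℕ → Z
  | [], _, _ => 0
  | g :: L, i, j =>
    if i < g.length then (if j < g.length then compE g i j else 0)
    else if j < g.length then 0 else ent L (i - g.length) (j - g.length)

/-- The block diagonal sum. -/
def bdM (L : List (List Z)) : Matrix (Fin (dimL L)) (Fin (dimL L)) Z :=
  Matrix.of fun i j => ent L i j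

theorem bdM_cons (g : List Z) (L : List (List Z)) :
    bdM (g :: L) = blockM (compM g.get) (bdM L) := by
  refine Matrix.ext fun i j => ?_
  change Fin (g.length + dimL L) at i j
  obtain ⟨i, rfl⟩ := finSumFinEquiv.surjective i
  obtain ⟨j, rfl⟩ := finSumFinEquiv.surjective j
  show ent (g :: L) _ _ =
    blockM (compM g.get) (bdM L) (finSumFinEquiv i) (finSumFinEquiv j)
  rcases i with i | i <;> rcases j with j | j <;>
    simp [blockM, bdM, ent, compE, compM, List.getD_eq_getElem?_getD] <;> congr

/-- Base three digit. -/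
def dN (n x i j : ℕ) : ℕ := x / 3 ^ (i * n + j) % 3

/-- The matrix of a numeral. -/
def mat (n x : ℕ) : Matrix (Fin n) (Fin n) Z :=
  Matrix.of fun i j => (dN n x i j : Z)

/-- `z` is the product of `x` and `y`. -/
def mulOK (n x y z : ℕ) : Bool :=
  (List.range n).all fun i => (List.range n).all fun j =>
    (((List.range n).map fun k => dN n x i k * dN n y k j).sum % 3) == dN n z i j

theorem mat_mul {n x y z : ℕ} (h : mulOK n x y z = true) : mat n x * mat n y = mat n z := by
  ext i j
  simp only [mulOK, List.all_eq_true, List.mem_range, beq_iff_eq] at h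
  have h' := congrArg (fun a : ℕ => (a : Z)) (h i i.isLt j j.isLt)
  simp only [ZMod.natCast_mod, Nat.cast_list_sum, List.map_map] at h'
  rw [Matrix.mul_apply]
  show ∑ k : Fin n, (dN n x i k : Z) * (dN n y k j : Z) = (dN n z i j : Z)
  rw [← h', Fin.sum_univ_eq_sum_range (fun k => (dN n x i k : Z) * (dN n y k j : Z)) n]
  simp [Finset.sum, Finset.range, Multiset.range, Function.comp_def]

/-- Every entry satisfies `p`. -/
def entOK (n : ℕ) (p : ℕ → ℕ → Bool) : Bool :=
  (List.range n).all fun i => (List.range n).all fun j => p i j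

theorem entOK_apply {n : ℕ} {p : ℕ → ℕ → Bool} (h : entOK n p = true) (i j : Fin n) : p i j = true := by
  simp only [entOK, List.all_eq_true, List.mem_range] at h
  exact h i i.isLt j j.isLt

/-- The numerals of a certificate. -/
structure Dat where
  key : List (List Z)
  pol : List Z
  t : ℕ
  g : ℕ
  g' : ℕ
  a : ℕ
  tg : ℕ
  idm : ℕ
  c : ℕ
  ac : ℕ
  l : ℕ
  u : ℕ
  b : ℕ
  bc : ℕ

/-- The check of a certificate, for blocks of total size `d + 1` and admissible factors `ps`. -/
def chk (ps : List (List Z)) (D : Dat) : Bool :=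
  let n := dimL D.key
  decide (D.pol ∈ ps) && decide (D.pol.length = n) && decide (0 < n) &&
    decide ((-1) ^ n * D.pol.getD 0 0 = (1 : Z)) &&
    entOK n (fun i j => decide ((dN n D.t i j : Z) = ent D.key i j)) &&
    entOK n (fun i j => decide ((dN n D.c i j : Z) = compE D.pol i j)) &&
    entOK n (fun i j => dN n D.idm i j == if i == j then 1 else 0) &&
    entOK n (fun i j => !(decide (i < j)) || dN n D.l i j == 0) &&
    entOK n (fun i j => !(i == j) || dN n D.l i j == 1) &&
    entOK n (fun i j => !(decide (j < i)) || dN n D.u i j == 0) &&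
    ((((List.range n).map fun i => dN n D.u i i).prod % 3) == 1) &&
    mulOK n D.g D.g' D.idm && mulOK n D.t D.g D.tg && mulOK n D.g D.a D.tg &&
    mulOK n D.a D.c D.ac && mulOK n D.l D.u D.b && mulOK n D.ac D.b D.bc && mulOK n D.b D.c D.bc

/-- The product of the tabled factors over `F`. -/
noncomputable def prodP {F : Type*} [Field F] (φ : Z →+* F) (ps : List (List Z)) : F[X] :=
  (ps.map fun f => (polyL (f ++ [1])).map φ).prod

/-- The endomorphism of a list of blocks over `F`. -/
noncomputable def tL {F : Type*} [Field F] (φ : Z →+* F) (L : List (List Z)) :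
    Module.End F (Fin (dimL L) → F) :=
  Matrix.toLin' ((bdM L).map φ)

theorem comm_of_chk {F : Type*} [Field F] (φ : Z →+* F) (ps : List (List Z)) (D : Dat)
    (h : chk ps D = true) : Comm (prodP φ ps) (tL φ D.key) := by
  simp only [chk, Bool.and_eq_true, decide_eq_true_eq] at h
  obtain ⟨⟨⟨⟨⟨⟨⟨⟨⟨⟨⟨⟨⟨⟨⟨⟨⟨hps, hlen⟩, hpos⟩, hdet⟩, ht⟩, hc⟩, hid⟩, hl0⟩, hl1⟩, hu0⟩, hu1⟩, m1⟩, m2⟩, m3⟩,
    m4⟩, m5⟩, m6⟩, m7⟩ := h
  obtain ⟨d, hd⟩ : ∃ d, dimL D.key = d + 1 := ⟨dimL D.key - 1, by omega⟩
  rw [hd] at hlen hdet ht hc hid hl0 hl1 hu0 hu1 m1 m2 m3 m4 m5 m6 m7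
  let σ : Fin (d + 1) ≃ Fin (dimL D.key) := finCongr hd.symm
  let c : Fin (d + 1) → Z := fun i => D.pol.getD i 0
  have hid' : mat (d + 1) D.idm = 1 := by
    ext i j
    have := entOK_apply hid i j
    rw [beq_iff_eq] at this
    show (dN (d + 1) D.idm i j : Z) = _
    rw [this, Matrix.one_apply]
    simp only [beq_iff_eq, Fin.ext_iff]
    split_ifs <;> simp
  have hc' : mat (d + 1) D.c = compM c := by
    ext i j
    have := entOK_apply hc i j
    rw [decide_eq_true_eq] at this
    show (dN (d + 1) D.c i j : Z) = _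
    rw [this]
    simp [compE, compM, c, hlen]
  have e1 : mat (d + 1) D.g * mat (d + 1) D.g' = 1 := (mat_mul m1).trans hid'
  have e2 : mat (d + 1) D.t * mat (d + 1) D.g = mat (d + 1) D.g * mat (d + 1) D.a :=
    (mat_mul m2).trans (mat_mul m3).symm
  have e3 : CertOK (mat (d + 1) D.a) (mat (d + 1) D.l) (mat (d + 1) D.u) c := by
    refine ⟨fun q hq => ?_, fun i => ?_, fun q hq => ?_, ?_, ?_, ?_⟩
    · have hlt : (q.1 : ℕ) < (q.2 : ℕ) := hq
      have := entOK_apply hl0 q.1 q.2
      show (dN (d + 1) D.l q.1 q.2 : Z) = 0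
      simp [hlt] at this
      simp [this]
    · have := entOK_apply hl1 i i
      show (dN (d + 1) D.l i i : Z) = 1
      simp at this
      simp [this]
    · have hlt : (q.2 : ℕ) < (q.1 : ℕ) := hq
      have := entOK_apply hu0 q.1 q.2
      show (dN (d + 1) D.u q.1 q.2 : Z) = 0
      simp [hlt] at this
      simp [this]
    · rw [beq_iff_eq] at hu1
      have h' := congrArg (fun a : ℕ => (a : Z)) hu1
      simp only [ZMod.natCast_mod, Nat.cast_list_prod, List.map_map, Nat.cast_one] at h'
      show ∏ i : Fin (d + 1), (dN (d + 1) D.u i i : Z) = 1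
      rw [← h', Fin.prod_univ_eq_prod_range (fun i => (dN (d + 1) D.u i i : Z)) (d + 1)]
      simp [Finset.prod, Finset.range, Multiset.range, Function.comp_def]
    · exact hdet
    · rw [← hc', mat_mul m4, mat_mul m5, mat_mul m6, mat_mul m7]
  have hf : List.ofFn c ++ [1] = D.pol ++ [1] := by
    refine congrArg (fun a => a ++ [(1 : Z)]) (List.ext_getElem (by simp [hlen]) fun i hi hi' => ?_)
    rw [List.getElem_ofFn]
    exact List.getD_eq_getElem _ _ hi'
  have hdvd : (polyL (D.pol ++ [1])).map φ ∣ prodP φ ps :=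
    List.dvd_prod (List.mem_map.2 ⟨D.pol, hps, rfl⟩)
  have h' := (comm_of_certConj φ _ _ _ _ _ _ c _ ⟨e1, e2, e3, hf⟩ hdvd).map
    (LinearEquiv.funCongrLeft F F σ.symm)
  have e : (LinearEquiv.funCongrLeft F F σ.symm).conj (Matrix.toLin' ((mat (d + 1) D.t).map φ)) =
      tL φ D.key := by
    have hm : mat (d + 1) D.t = (bdM D.key).submatrix σ σ := by
      ext i j
      have := entOK_apply ht i j
      rw [decide_eq_true_eq] at this
      show (dN (d + 1) D.t i j : Z) = _
      rw [this]
      rfl
    refine LinearMap.ext fun x => _root_.funext fun i => ?_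
    rw [hm, LinearEquiv.conj_apply_apply, tL, Matrix.toLin'_apply, Matrix.toLin'_apply, ← submatrix_map]
    change (Matrix.submatrix ((bdM D.key).map φ) σ σ *ᵥ (x ∘ σ)) (σ.symm i) = _
    rw [submatrix_mulVec_equiv]
    simp [Function.comp_def]
  rwa [e] at h'

end CfsgLib.OreOrth.Three
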