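import Cfsg.Agent.Lib.OreOrth.Three.Engine

/-!
The factors used by the certificates over the field with three elements.
-/

namespace CfsgLib.OreOrth.Three

/-- Factors for the blocks with a certificate. -/
def psP : List (List Z) := [[2,2,0],[1,0,1,1],[2,0,2,2,1],[2,2,0,1,1],[1,0,0,0,1,1],[1,0,0,0,2,0],[2,2,0,0,1,0,2],[1,2,1,1,0,2,2,1],[1,0,2,0,0,0,1,0],[2,1,0,1,1,2,2,0,1],[1,0,0,0,0,0,0,0,2,0]]

/-- Factors for the prescribed cyclic blocks of size three, four and five. -/
def psQ : List (List Z) := [[2,1,1],[1,1,0,2],[2,0,0,0,1]]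

end CfsgLib.OreOrth.Three
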