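import Cfsg.Agent.Lib.OreOrth.Three.Small

/-!
A leftover of small pieces over the field with three elements joined to one large group.
-/

set_option autoImplicit false
set_option maxRecDepth 100000

namespace CfsgLib.OreOrth.Three

open Polynomial Module

variable {F : Type*} [Field F] {φ : Z →+* F}

theorem perm_swap_head {α : Type*} (a b : α) (l : List α) : (a :: b :: l).Perm (b :: a :: l) :=
  List.Perm.swap b a l

theorem oka_perm {L M : List (List Z)} (h : OKA φ L) (p : L.Perm M) : OKA φ M := OK.perm h p

theorem sgn_ne_zero_of {g : List Z} (h : sgn g = 1 ∨ sgn g = -1) : sgn g ≠ 0 := by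
  rcases h with e | e <;> rw [e] <;> decide

/-- Halving the block of `(X - 1) ^ 2` beside an identity. -/
theorem red_half {j : ℕ} (hj : 2 ≤ j) : Red φ (prodP φ psQ) (J2 :: List.replicate j one) [one] := by
  refine ⟨[one] ++ List.replicate j one, ?_, ?_⟩
  · exact ok_ones (φ := φ) psQ psQ_small (show 3 ≤ j + 1 by omega)
  · have h1 := udl_block (φ := φ) J2 one 1 1 one_pos one_pos rfl rfl (by decide) (by decide)
    rw [show ((J2.take 1).map (· / one.getD 0 0)) = one by decide +kernel] at h1
    have h2 : HasUDL (tL φ (List.replicate j one)) (tL φ (List.replicate j one))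
        (tL φ ([] : List (List Z))) := by
      have : Subsingleton (Fin (dimL ([] : List (List Z))) → F) := by
        show Subsingleton (Fin 0 → F)
        infer_instance
      exact hasUDL_left _ _
    exact simi_hasUDL (simi_append φ [J2] (List.replicate j one))
      (simi_append φ [one] (List.replicate j one)).symm
      (simi_hasUDL_right (simi_append φ [one] []).symm (h1.prodMap h2))

/-- Blocks of size two with the identity. -/
theorem oka_twos_one {g : List Z} (hl : g.length = 2) (hs : sgn g = 1) (a e : ℕ) (ha : 1 ≤ a)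
    (he : 1 ≤ e) (hgood : 2 ≤ a ∨ g ≠ J2 ∨ 4 ≤ e) : OKA φ (List.replicate a g ++ List.replicate e one) := by
  obtain ⟨⟨k2, k3⟩, -, -, k1, k23⟩ := keys_two hl hs
  rcases eq_or_lt_of_le ha with rfl | ha2
  · rcases eq_or_ne g J2 with rfl | hne
    · have he4 : 4 ≤ e := by
        rcases hgood with h | h | h
        · omega
        · exact absurd rfl h
        · exact h
      have h := oka_red ((red_half (φ := φ) (j := e - 2) (by omega)).append
        (Red.keep _ (List.replicate 2 one))) (ok_ones (φ := φ) psP psP_small (le_refl 3))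
      rw [List.cons_append, ← List.replicate_add, show e - 2 + 2 = e by omega] at h
      exact h
    · rcases le_or_gt e 3 with h | h
      · exact oka_key (k1 hne e (by simp; omega))
      · rw [show e = 1 + (e - 1) by omega, List.replicate_add, ← List.append_assoc]
        exact OK.append (oka_key (k1 hne 1 (by simp))) (OKA.of_P (ok_ones psP psP_small (by omega)))
  · rcases le_or_gt 3 e with h | h
    · exact OK.append (oka_twos hl hs a ha2) (OKA.of_P (ok_ones psP psP_small h))
    · obtain ⟨hg2, hg3⟩ := k23 e (by simp; omega)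
      obtain rfl | rfl | h4 : a = 2 ∨ a = 3 ∨ 4 ≤ a := by omega
      · exact oka_key hg2
      · exact oka_key hg3
      · rw [show a = (a - 2) + 2 by omega, List.replicate_add, List.append_assoc]
        exact OK.append (oka_twos hl hs _ (by omega)) (oka_key hg2)

theorem keys_three_merge {h : List Z} (hl : h.length = 3) (hs : sgn h = 1) :
    (∀ g ∈ vecs 2, sgn g = 1 → [h, g] ∈ keys) ∧ (∀ r ∈ [2, 4], h :: List.replicate r neg ∈ keys) ∧
      [h, one] ∈ keys ∧ [h, one, one] ∈ keys ∧ [h, J2, one] ∈ keys :=
  forall_len 3 (p := fun h => sgn h = 1 → (∀ g ∈ vecs 2, sgn g = 1 → [h, g] ∈ keys) ∧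
      (∀ r ∈ [2, 4], h :: List.replicate r neg ∈ keys) ∧
      [h, one] ∈ keys ∧ [h, one, one] ∈ keys ∧ [h, J2, one] ∈ keys) (by decide +kernel) h hl hs

theorem keys_four_merge {h : List Z} (hl : h.length = 4) (hs : sgn h = 1) :
    [h, one] ∈ keys ∧ [h, J2] ∈ keys ∧ [h, J2, one] ∈ keys :=
  forall_len 4 (p := fun h => sgn h = 1 → [h, one] ∈ keys ∧ [h, J2] ∈ keys ∧ [h, J2, one] ∈ keys)
    (by decide +kernel) h hl hs

theorem keys_five_merge {h : List Z} (hl : h.length = 5) (hs : sgn h = 1) (hc : corner 2 h = J2) :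
    [h, one] ∈ keys :=
  forall_len 5 (p := fun h => sgn h = 1 → corner 2 h = J2 → [h, one] ∈ keys) (by decide +kernel) h hl hs hc

theorem keys_two_two {g h : List Z} (hg : g.length = 2) (hh : h.length = 2) (sg : sgn g = 1) (sh : sgn h = 1) :
    [g, h] ∈ keys ∧ ([g, J2, one] ∈ keys ∧ [g, J2, one, one] ∈ keys ∧ [g, J2, one, one, one] ∈ keys) := by
  have : ∀ g ∈ vecs 2, ∀ h ∈ vecs 2, sgn g = 1 → sgn h = 1 →
      [g, h] ∈ keys ∧ ([g, J2, one] ∈ keys ∧ [g, J2, one, one] ∈ keys ∧ [g, J2, one, one, one] ∈ keys) := by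
    decide +kernel
  exact this g (hg ▸ mem_vecs g) h (hh ▸ mem_vecs h) sg sh

/-- A block of determinant one with one block of size two. -/
theorem merge_two (hφ : Function.Bijective φ) {h g : List Z} (hl : 3 ≤ h.length) (hs : sgn h = 1)
    (gl : g.length = 2) (gs : sgn g = 1) : OKA φ [h, g] := by
  have nh : sgn h ≠ 0 := sgn_ne_zero_of (Or.inl hs)
  obtain h3 | h4 | h5 | h6 : h.length = 3 ∨ h.length = 4 ∨ h.length = 5 ∨ 6 ≤ h.length := by omega
  · exact oka_key ((keys_three_merge h3 hs).1 g (gl ▸ mem_vecs g) gs)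
  · rcases eq_or_ne g J2 with rfl | hne
    · exact oka_key (keys_four_merge h4 hs).2.1
    · refine oka_red ((red_cut hφ (d := 1) one_pos (by omega) nh).append (Red.keep _ [g])) ?_
      rw [corner_one_one (by omega) hs]
      exact (ok_key ((keys_two gl gs).2.2.2.1 hne 1 (by simp))).perm (perm_swap_head _ _ _)
  · exact oka_red ((red_cut hφ (d := 2) (by omega) (by omega) nh).append (Red.keep _ [g]))
      (ok_key (keys_two_two (length_corner (by omega)) gl ((sgn_corner (by omega) (by omega)).trans hs) gs).1)
  · exact oka_red ((red_cut hφ (d := 3) (by omega) (by omega) nh).append (Red.keep _ [g]))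
      (ok_key ((keys_three_merge (length_corner (by omega)) ((sgn_corner (by omega) (by omega)).trans hs)).1 g
        (gl ▸ mem_vecs g) gs))

theorem key_neg_neg_one : [neg, neg, one] ∈ keys ∧ [neg, neg, neg, neg, one] ∈ keys := by decide +kernel

/-- A block of determinant one with minus the identity of size two or four. -/
theorem merge_negs (hφ : Function.Bijective φ) {h : List Z} (hl : 3 ≤ h.length) (hs : sgn h = 1) {r : ℕ}
    (hr : r = 2 ∨ r = 4) : OKA φ (h :: List.replicate r neg) := by
  have nh : sgn h ≠ 0 := sgn_ne_zero_of (Or.inl hs)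
  have hr' : r ∈ [2, 4] := by simpa using hr
  obtain h3 | h4 | h5 | h6 : h.length = 3 ∨ h.length = 4 ∨ h.length = 5 ∨ 6 ≤ h.length := by omega
  · exact oka_key ((keys_three_merge h3 hs).2.1 r hr')
  · refine oka_red ((red_cut hφ (d := 1) one_pos (by omega) nh).append (Red.keep _ (List.replicate r neg))) ?_
    rw [corner_one_one (by omega) hs]
    rcases hr with rfl | rfl
    · exact (ok_key key_neg_neg_one.1).perm (List.perm_append_comm (l₁ := [neg, neg]) (l₂ := [one]))
    · exact (ok_key key_neg_neg_one.2).perm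
        (List.perm_append_comm (l₁ := [neg, neg, neg, neg]) (l₂ := [one]))
  · exact oka_red ((red_cut hφ (d := 2) (by omega) (by omega) nh).append (Red.keep _ (List.replicate r neg)))
      (ok_key ((keys_two (length_corner (by omega)) ((sgn_corner (by omega) (by omega)).trans hs)).2.1 r
        (by rcases hr with rfl | rfl <;> simp)))
  · exact oka_red ((red_cut hφ (d := 3) (by omega) (by omega) nh).append (Red.keep _ (List.replicate r neg)))
      (ok_key ((keys_three_merge (length_corner (by omega)) ((sgn_corner (by omega) (by omega)).trans hs)).2.1 r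
        hr'))

/-- A block of determinant one with the identity of size one or two. -/
theorem merge_ones (hφ : Function.Bijective φ) {h : List Z} (hl : 3 ≤ h.length) (hs : sgn h = 1) {e : ℕ}
    (he : e = 1 ∨ e = 2) : OKA φ (h :: List.replicate e one) := by
  have nh : sgn h ≠ 0 := sgn_ne_zero_of (Or.inl hs)
  obtain h3 | h45 | h6 : h.length = 3 ∨ (h.length = 4 ∨ h.length = 5) ∨ 6 ≤ h.length := by omega
  · rcases he with rfl | rfl
    · exact oka_key (keys_three_merge h3 hs).2.2.1
    · exact oka_key (keys_three_merge h3 hs).2.2.2.1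
  · rcases he with rfl | rfl
    · rcases h45 with h4 | h5
      · exact oka_key (keys_four_merge h4 hs).1
      · rcases eq_or_ne (corner 2 h) J2 with hc | hc
        · exact oka_key (keys_five_merge h5 hs hc)
        · exact oka_red ((red_cut hφ (d := 2) (by omega) (by omega) nh).append (Red.keep _ [one]))
            (ok_key ((keys_two (length_corner (by omega))
              ((sgn_corner (by omega) (by omega)).trans hs)).2.2.2.1 hc 1 (by simp)))
    · refine oka_red ((red_cut hφ (d := 1) one_pos (by omega) nh).append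
        (Red.keep _ (List.replicate 2 one))) ?_
      rw [corner_one_one (by omega) hs]
      exact ok_ones psP psP_small (le_refl 3)
  · have k := keys_three_merge (h := corner 3 h) (length_corner (by omega))
      ((sgn_corner (by omega) (by omega)).trans hs)
    refine oka_red ((red_cut hφ (d := 3) (by omega) (by omega) nh).append
      (Red.keep _ (List.replicate e one))) (ok_key ?_)
    rcases he with rfl | rfl
    · exact k.2.2.1
    · exact k.2.2.2.1

/-- A block of determinant one with a transvection. -/
theorem merge_transvection (hφ : Function.Bijective φ) {h : List Z} (hl : 3 ≤ h.length) (hs : sgn h = 1)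
    {e : ℕ} (he : 1 ≤ e) (he3 : e ≤ 3) : OKA φ (h :: J2 :: List.replicate e one) := by
  have nh : sgn h ≠ 0 := sgn_ne_zero_of (Or.inl hs)
  obtain h5 | hne : h.length = 5 ∨ h.length ≠ 5 := by omega
  · refine oka_red ((red_cut hφ (d := 2) (by omega) (by omega) nh).append
      (Red.keep _ (J2 :: List.replicate e one))) (ok_key ?_)
    have k := (keys_two_two (g := corner 2 h) (h := J2) (length_corner (by omega)) rfl
      ((sgn_corner (by omega) (by omega)).trans hs) (by decide)).2
    obtain rfl | rfl | rfl : e = 1 ∨ e = 2 ∨ e = 3 := by omega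
    exacts [k.1, k.2.1, k.2.2]
  rcases eq_or_lt_of_le he with rfl | he2
  · obtain h3 | h4 | h6 : h.length = 3 ∨ h.length = 4 ∨ 6 ≤ h.length := by omega
    · exact oka_key (keys_three_merge h3 hs).2.2.2.2
    · exact oka_key (keys_four_merge h4 hs).2.2
    · exact oka_red ((red_cut hφ (d := 3) (by omega) (by omega) nh).append (Red.keep _ [J2, one]))
        (ok_key (keys_three_merge (length_corner (by omega))
          ((sgn_corner (by omega) (by omega)).trans hs)).2.2.2.2)
  · have hh := red_half (φ := φ) (j := e) he2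
    obtain h3 | h4 | h6 : h.length = 3 ∨ h.length = 4 ∨ 6 ≤ h.length := by omega
    · exact oka_red ((Red.keep _ [h]).append hh) (ok_key (keys_three_merge h3 hs).2.2.1)
    · exact oka_red ((Red.keep _ [h]).append hh) (ok_key (keys_four_merge h4 hs).1)
    · exact oka_red ((red_cut hφ (d := 3) (by omega) (by omega) nh).append hh)
        (ok_key (keys_three_merge (length_corner (by omega))
          ((sgn_corner (by omega) (by omega)).trans hs)).2.2.1)

/-- The small forms of blocks of determinant minus one. -/
def minusForms : List (List Z) :=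
  neg :: ((vecs 2 ++ vecs 3).filter fun g => decide (sgn g = -1))

set_option synthInstance.maxSize 100000 in
theorem keys_minus : ∀ u ∈ minusForms, ∀ v ∈ minusForms, v.length ≤ u.length →
    (u.length ≠ v.length ∨ u = v) →
    ([u, v, one] ∈ keys ∧ [u, v, one, one] ∈ keys) ∧
      (u.length ≠ 2 → v.length ≠ 2 → [u, v, J2, one] ∈ keys ∧
        (∀ g ∈ vecs 2, sgn g = 1 → [u, v, g] ∈ keys ∨ [g, u, v] ∈ keys)) := by decide +kernel

theorem mem_minusForms {g : List Z} (hl : g.length = 2 ∨ g.length = 3) (hs : sgn g = -1) : g ∈ minusForms := by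
  refine List.mem_cons_of_mem _ (List.mem_filter.2 ⟨List.mem_append.2 ?_, by simpa using hs⟩)
  rcases hl with h | h
  · exact Or.inl (h ▸ mem_vecs g)
  · exact Or.inr (h ▸ mem_vecs g)

/-- The small form of a block of determinant minus one. -/
def shrink (g : List Z) : List Z := if 4 ≤ g.length then neg else g

theorem shrink_spec (hφ : Function.Bijective φ) {g : List Z}
    (hg : g = neg ∨ (2 ≤ g.length ∧ sgn g = -1)) :
    Red φ (prodP φ psQ) [g] [shrink g] ∧ shrink g ∈ minusForms ∧ (g.length ≠ 2 → (shrink g).length ≠ 2) := by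
  unfold shrink
  split_ifs with h
  · obtain rfl | ⟨-, hs⟩ := hg
    · exact absurd h (by decide)
    refine ⟨?_, List.mem_cons_self, fun _ => by decide⟩
    have := red_cut hφ (d := 1) one_pos (by omega) (sgn_ne_zero_of (Or.inr hs))
    rwa [corner_one_neg (by omega) hs] at this
  · refine ⟨Red.keep _ _, ?_, fun e => e⟩
    obtain rfl | ⟨hl, hs⟩ := hg
    · exact List.mem_cons_self
    · exact mem_minusForms (by omega) hs

theorem shrink_cases {g h : List Z} (he : g.length = h.length → g = h)
    (hg : g = neg ∨ 2 ≤ g.length) (hh : h = neg ∨ 2 ≤ h.length) :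
    (shrink g).length = (shrink h).length → shrink g = shrink h := by
  intro e
  unfold shrink at e ⊢
  split_ifs at e ⊢ with a b b
  · rfl
  · rcases hh with rfl | hh
    · rfl
    · simp at e; omega
  · rcases hg with rfl | hg
    · rfl
    · simp at e; omega
  · exact he e

/-- Two blocks of determinant minus one with one of the bad leftovers. -/
theorem merge_minus (hφ : Function.Bijective φ) {g h : List Z} (hg : 2 ≤ g.length ∧ sgn g = -1)
    (hh : h = neg ∨ (2 ≤ h.length ∧ sgn h = -1)) (he : g.length = h.length → g = h) :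
    OKA φ [g, h, one] ∧ OKA φ [g, h, one, one] ∧
      (g.length ≠ 2 → h.length ≠ 2 →
        (∀ e, 1 ≤ e → e ≤ 3 → OKA φ (g :: h :: J2 :: List.replicate e one)) ∧
        (∀ w : List Z, w.length = 2 → sgn w = 1 → OKA φ [g, h, w])) := by
  obtain ⟨rg, mg, lg⟩ := shrink_spec hφ (Or.inr hg : g = neg ∨ _)
  obtain ⟨rh, mh, lh⟩ := shrink_spec hφ hh
  have hc := shrink_cases he (Or.inr hg.1) (hh.imp id And.left)
  set u := shrink g
  set v := shrink h
  have R : Red φ (prodP φ psQ) [g, h] [u, v] := rg.append rh
  have K : ∀ (D : List (List Z)), ([u, v] ++ D ∈ keys ∨ [v, u] ++ D ∈ keys ∨ D ++ [u, v] ∈ keys ∨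
      D ++ [v, u] ∈ keys) → OK φ (prodP φ psP) ([u, v] ++ D) := by
    intro D hD
    rcases hD with k | k | k | k
    · exact ok_key k
    · exact (ok_key k).perm ((perm_swap_head v u []).append_right D)
    · exact (ok_key k).perm List.perm_append_comm
    · exact (ok_key k).perm (List.perm_append_comm.trans ((perm_swap_head v u []).append_right D))
  have main : ([u, v] ++ [one] ∈ keys ∨ [v, u] ++ [one] ∈ keys) ∧
      ([u, v] ++ [one, one] ∈ keys ∨ [v, u] ++ [one, one] ∈ keys) ∧
      (u.length ≠ 2 → v.length ≠ 2 → ([u, v] ++ [J2, one] ∈ keys ∨ [v, u] ++ [J2, one] ∈ keys) ∧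
        ∀ w ∈ vecs 2, sgn w = 1 → [u, v] ++ [w] ∈ keys ∨ [v, u] ++ [w] ∈ keys ∨ [w] ++ [u, v] ∈ keys ∨
          [w] ++ [v, u] ∈ keys) := by
    rcases le_total v.length u.length with hle | hle
    · obtain ⟨⟨k1, k2⟩, k3⟩ := keys_minus u mg v mh hle (or_iff_not_imp_left.2 fun n => hc (not_not.1 n))
      exact ⟨Or.inl k1, Or.inl k2, fun a b => ⟨Or.inl (k3 a b).1, fun w hw sw =>
        ((k3 a b).2 w hw sw).elim Or.inl fun k => Or.inr (Or.inr (Or.inl k))⟩⟩
    · obtain ⟨⟨k1, k2⟩, k3⟩ := keys_minus v mh u mg hle
        (or_iff_not_imp_left.2 fun n => (hc (not_not.1 n).symm).symm)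
      exact ⟨Or.inr k1, Or.inr k2, fun a b => ⟨Or.inr (k3 b a).1, fun w hw sw =>
        ((k3 b a).2 w hw sw).elim (fun k => Or.inr (Or.inl k)) fun k => Or.inr (Or.inr (Or.inr k))⟩⟩
  obtain ⟨k1, k2, k3⟩ := main
  refine ⟨oka_red (R.append (Red.keep _ [one])) (K _ (k1.imp id Or.inl)),
    oka_red (R.append (Red.keep _ [one, one])) (K _ (k2.imp id Or.inl)), fun hg2 hh2 => ⟨fun e e1 e3 => ?_,
      fun w wl ws => oka_red (R.append (Red.keep _ [w])) (K _ ((k3 (lg hg2) (lh hh2)).2 w (wl ▸ mem_vecs w) ws))⟩⟩
  rcases eq_or_lt_of_le e1 with rfl | e2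
  · exact oka_red (R.append (Red.keep _ [J2, one])) (K _ ((k3 (lg hg2) (lh hh2)).1.imp id Or.inl))
  · exact oka_red (R.append (red_half e2)) (K _ (k1.imp id Or.inl))

/-- One block of determinant minus one with minus the identity of size three or five. -/
theorem merge_minus_negs (hφ : Function.Bijective φ) {g : List Z} (hl : 2 ≤ g.length) (hs : sgn g = -1)
    {r : ℕ} (hr : r = 3 ∨ r = 5) : OKA φ (g :: List.replicate r neg) := by
  have ng : sgn g ≠ 0 := sgn_ne_zero_of (Or.inr hs)
  have k23 : ∀ g ∈ vecs 2 ++ vecs 3, sgn g = -1 → ∀ r ∈ [3, 5], g :: List.replicate r neg ∈ keys := by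
    decide +kernel
  have k4 : ∀ g ∈ vecs 4, sgn g = -1 → g :: List.replicate 3 neg ∈ keys := by decide +kernel
  have hr' : r ∈ [3, 5] := by simpa using hr
  obtain h23 | h4 | h5 : (g.length = 2 ∨ g.length = 3) ∨ g.length = 4 ∨ 5 ≤ g.length := by omega
  · refine oka_key (k23 g (List.mem_append.2 ?_) hs r hr')
    rcases h23 with h | h
    · exact Or.inl (h ▸ mem_vecs g)
    · exact Or.inr (h ▸ mem_vecs g)
  · rcases hr with rfl | rfl
    · exact oka_key (k4 g (h4 ▸ mem_vecs g) hs)
    · refine oka_red ((red_cut hφ (d := 1) one_pos (by omega) ng).append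
        (Red.keep _ (List.replicate 5 neg))) ?_
      rw [corner_one_neg (by omega) hs]
      exact ok_key (by decide +kernel)
  · refine oka_red ((red_cut hφ (d := 2) (by omega) (by omega) ng).append
      (Red.keep _ (List.replicate r neg))) (ok_key ?_)
    have hm := mem_vecs (corner 2 g)
    rw [length_corner (show 2 ≤ g.length by omega)] at hm
    exact k23 _ (List.mem_append.2 (Or.inl hm))
      ((sgn_corner (by omega) (by omega)).trans hs) r hr'

end CfsgLib.OreOrth.Three
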