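import Cfsg.Agent.Lib.OreOrth.Three.Red
import Cfsg.Agent.Lib.OreOrth.Three.Data0
import Cfsg.Agent.Lib.OreOrth.Three.Data1
import Cfsg.Agent.Lib.OreOrth.Three.Data2
import Cfsg.Agent.Lib.OreOrth.Three.Data3
import Cfsg.Agent.Lib.OreOrth.Three.Data4
import Cfsg.Agent.Lib.OreOrth.Three.Data5
import Cfsg.Agent.Lib.OreOrth.Three.Data6
import Cfsg.Agent.Lib.OreOrth.Three.Data7

/-!
The tabled block sums, the prescribed cyclic blocks and the cut of one block at a corner.
-/

set_option autoImplicit false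
set_option maxRecDepth 100000

namespace CfsgLib.OreOrth.Three

open Polynomial Module

/-- The block of `X - 1`. -/
abbrev one : List Z := [2]

/-- The block of `X + 1`. -/
abbrev neg : List Z := [1]

/-- The block of `(X - 1) ^ 2`. -/
abbrev J2 : List Z := [1, 1]

/-- The determinant of a block. -/
def sgn (g : List Z) : Z := (-1) ^ g.length * g.getD 0 0

/-- All coefficient lists of a length. -/
def vecs : ℕ → List (List Z)
  | 0 => [[]]
  | k + 1 => [(0 : Z), 1, 2].flatMap fun a => (vecs k).map (List.cons a)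

theorem mem_vecs : ∀ g : List Z, g ∈ vecs g.length
  | [] => List.mem_singleton.2 rfl
  | a :: g => by
    rw [List.length_cons, vecs, List.mem_flatMap]
    exact ⟨a, by revert a; decide, List.mem_map.2 ⟨g, mem_vecs g, rfl⟩⟩

/-- A statement checked on all coefficient lists of a length. -/
theorem forall_len {p : List Z → Prop} (k : ℕ) (h : ∀ g ∈ vecs k, p g) (g : List Z) (hg : g.length = k) : p g :=
  h g (hg ▸ mem_vecs g)

/-- The corner left by a cut of size `d`. -/
def corner (d : ℕ) (g : List Z) : List Z := (g.take d).map (· / (-1) ^ (g.length - d))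

theorem length_corner {d : ℕ} {g : List Z} (h : d ≤ g.length) : (corner d g).length = d := by
  simp [corner, h]

theorem neg_one_pow_cases (m : ℕ) : ((-1 : Z) ^ m) = 1 ∨ ((-1 : Z) ^ m) = -1 := neg_one_pow_eq_or Z m

theorem sgn_corner {d : ℕ} {g : List Z} (hd : 0 < d) (h : d ≤ g.length) : sgn (corner d g) = sgn g := by
  rw [sgn, sgn, length_corner h, corner, List.getD_eq_getElem?_getD, List.getElem?_map, List.getElem?_take,
    if_pos hd]
  obtain ⟨m, hm⟩ := Nat.exists_eq_add_of_le h
  rw [hm, Nat.add_sub_cancel_left, pow_add, List.getD_eq_getElem?_getD,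
    List.getElem?_eq_getElem (show 0 < g.length by omega)]
  simp only [Option.map_some, Option.getD_some]
  generalize g[0] = a
  rcases neg_one_pow_cases d with e | e <;> rcases neg_one_pow_cases m with e' | e' <;> rw [e, e'] <;>
    revert a <;> decide +kernel

theorem eq_one_of_sgn {g : List Z} (h : g.length = 1) (hs : sgn g = 1) : g = one :=
  forall_len 1 (p := fun g => sgn g = 1 → g = one) (by decide +kernel) g h hs

theorem eq_neg_of_sgn {g : List Z} (h : g.length = 1) (hs : sgn g = -1) : g = neg :=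
  forall_len 1 (p := fun g => sgn g = -1 → g = neg) (by decide +kernel) g h hs

/-- The tabled keys. -/
def keys : List (List (List Z)) :=
  (data0 ++ data1 ++ data2 ++ data3 ++ data4 ++ data5 ++ data6 ++ data7).map Dat.key

variable {F : Type*} [Field F] {φ : Z →+* F}

theorem ok_key {L : List (List Z)} (hL : L ∈ keys) : OK φ (prodP φ psP) L := by
  obtain ⟨D, hD, rfl⟩ := List.mem_map.1 hL
  have h : ∀ {l : List Dat}, l.all (chk psP) = true → D ∈ l → OK φ (prodP φ psP) D.key := fun hl hm =>
    comm_of_chk φ psP D (List.all_eq_true.1 hl D hm)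
  simp only [List.mem_append] at hD
  rcases hD with ((((((m | m) | m) | m) | m) | m) | m) | m
  · exact h data0_ok m
  · exact h data1_ok m
  · exact h data2_ok m
  · exact h data3_ok m
  · exact h data4_ok m
  · exact h data5_ok m
  · exact h data6_ok m
  · exact h data7_ok m

theorem monic_polyL_append {R : Type*} [CommRing R] [Nontrivial R] (l : List R) :
    (polyL (l ++ [1])).Monic ∧ (polyL (l ++ [1])).natDegree = l.length := by
  have hl : (polyL (l ++ [1])).natDegree = l.length := by
    refine le_antisymm ((natDegree_polyL_le _).trans (by simp)) (le_natDegree_of_ne_zero ?_)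
    rw [coeff_polyL]
    simp
  refine ⟨?_, hl⟩
  rw [Monic, leadingCoeff, hl, coeff_polyL]
  simp

/-- Every size at least three carries an admissible polynomial with constant `(-1) ^ m`. -/
theorem exists_poly (ps : List (List Z)) (hs : ∀ k : ℕ, 3 ≤ k → k ≤ 5 →
      ∃ f ∈ ps, f.length = k ∧ f.getD 0 0 = (-1) ^ k) (m : ℕ) (hm : 3 ≤ m) :
    ∃ p : F[X], p.Monic ∧ p.natDegree = m ∧ p.coeff 0 = (-1) ^ m ∧ ∃ N, p ∣ prodP φ ps ^ N := by
  induction m using Nat.strong_induction_on with
  | _ m ih =>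
    have base : ∀ k, 3 ≤ k → k ≤ 5 →
        ∃ p : F[X], p.Monic ∧ p.natDegree = k ∧ p.coeff 0 = (-1) ^ k ∧ p ∣ prodP φ ps := by
      intro k h3 h5
      obtain ⟨f, hf, hk, h0⟩ := hs k h3 h5
      obtain ⟨h1, h2⟩ := monic_polyL_append f
      refine ⟨(polyL (f ++ [1])).map φ, h1.map φ, by rw [natDegree_map, h2, hk], ?_,
        List.dvd_prod (List.mem_map.2 ⟨f, hf, rfl⟩)⟩
      rw [coeff_map, coeff_polyL, List.getElem?_append_left (by omega), ← List.getD_eq_getElem?_getD, h0,
        map_pow, map_neg, map_one]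
    rcases le_or_gt m 5 with h | h
    · obtain ⟨p, h1, h2, h3, h4⟩ := base m hm h
      exact ⟨p, h1, h2, h3, 1, by rwa [pow_one]⟩
    · obtain ⟨p, h1, h2, h3, h4⟩ := base 3 le_rfl (by omega)
      obtain ⟨p', g1, g2, g3, N, g4⟩ := ih (m - 3) (by omega) (by omega)
      refine ⟨p * p', h1.mul g1, by rw [h1.natDegree_mul g1, h2, g2]; omega, ?_, 1 + N, ?_⟩
      · rw [mul_coeff_zero, h3, g3, ← pow_add]
        congr 1
        omega
      · rw [pow_add, pow_one]
        exact mul_dvd_mul h4 g4

theorem exists_vec (ps : List (List Z)) (hs : ∀ k : ℕ, 3 ≤ k → k ≤ 5 →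
      ∃ f ∈ ps, f.length = k ∧ f.getD 0 0 = (-1) ^ k) (m : ℕ) (hm : 3 ≤ m) :
    ∃ c : Fin m → F, c ⟨0, by omega⟩ = (-1) ^ m ∧ LinearMap.det (comp c) = 1 ∧
      ∃ N, cpoly c ∣ prodP φ ps ^ N := by
  obtain ⟨p, h1, h2, h3, h4⟩ := exists_poly (φ := φ) ps hs m hm
  refine ⟨fun i => p.coeff i, h3, ?_, ?_⟩
  · rw [det_comp _ (by omega), h3, ← pow_add]
    exact Even.neg_one_pow ⟨m, rfl⟩
  · have hcp : cpoly (fun i : Fin m => p.coeff i) = p := by
      rw [cpoly]
      conv_rhs => rw [h1.as_sum, h2, ← Fin.sum_univ_eq_sum_range (fun i => C (p.coeff i) * X ^ i) m]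
    rwa [hcp]

theorem psP_small : ∀ k : ℕ, 3 ≤ k → k ≤ 5 → ∃ f ∈ psP, f.length = k ∧ f.getD 0 0 = (-1) ^ k := by
  intro k h1 h2
  interval_cases k <;> decide

theorem psQ_small : ∀ k : ℕ, 3 ≤ k → k ≤ 5 → ∃ f ∈ psQ, f.length = k ∧ f.getD 0 0 = (-1) ^ k := by
  intro k h1 h2
  interval_cases k <;> decide

theorem dimL_replicate_one : ∀ e : ℕ, dimL (List.replicate e one) = e
  | 0 => rfl
  | e + 1 => by
    rw [List.replicate_succ, dimL, dimL_replicate_one e]
    simp
    omega

theorem ent_replicate_one : ∀ e i j : ℕ, i < e → j < e →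
    ent (List.replicate e one) i j = if i = j then 1 else 0
  | 0, i, j, hi, _ => absurd hi (Nat.not_lt_zero i)
  | e + 1, i, j, hi, hj => by
    rw [List.replicate_succ, ent]
    simp only [List.length_cons, List.length_nil, zero_add]
    rcases i with _ | i <;> rcases j with _ | j
    · simp [compE]
      decide
    · simp
    · simp
    · simp [ent_replicate_one e i j (by omega) (by omega)]

/-- The identity of size at least three. -/
theorem ok_ones (ps : List (List Z)) (hs : ∀ k : ℕ, 3 ≤ k → k ≤ 5 →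
      ∃ f ∈ ps, f.length = k ∧ f.getD 0 0 = (-1) ^ k) {e : ℕ} (he : 3 ≤ e) :
    OK φ (prodP φ ps) (List.replicate e one) := by
  have hT : tL φ (List.replicate e one) = 1 := by
    have hb : bdM (List.replicate e one) = 1 := by
      refine Matrix.ext fun i j => ?_
      show ent _ i j = _
      rw [ent_replicate_one e i j (i.isLt.trans_le (dimL_replicate_one e).le)
        (j.isLt.trans_le (dimL_replicate_one e).le), Matrix.one_apply]
      simp [Fin.ext_iff]
    rw [tL, hb, Matrix.map_one φ (map_zero φ) (map_one φ), Matrix.toLin'_one]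
    rfl
  rw [OK, hT]
  obtain ⟨c, _, hdet, N, hN⟩ := exists_vec (φ := φ) ps hs (dimL (List.replicate e one))
    (by rw [dimL_replicate_one]; exact he)
  refine comm_of_dvd_pow hN ?_
  obtain ⟨u, hu⟩ : IsUnit (comp c) :=
    LinearMap.isUnit_iff_isUnit_det _ |>.2 (by rw [hdet]; exact isUnit_one)
  refine ⟨1, u, by simp, by simp, by rw [hu, hdet]; exact IsSquare.one, 1, ?_⟩
  rw [hu, pow_one]
  exact aeval_comp_cpoly c

/-- A free block with constant `(-1) ^ m`. -/
theorem exists_block (hφ : Function.Bijective φ) {m : ℕ} (hm : 3 ≤ m) :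
    ∃ r : List Z, r.length = m ∧ r.getD 0 0 = (-1) ^ m ∧ OK φ (prodP φ psQ) [r] := by
  obtain ⟨c, hc0, hdet, N, hN⟩ := exists_vec (φ := φ) psQ psQ_small m hm
  obtain ⟨r, hr0, hr⟩ := exists_comp_comm (by omega) c
    (by rw [hc0]; exact pow_ne_zero _ (neg_ne_zero.2 one_ne_zero)) (by rw [hdet]; exact IsSquare.one)
  obtain ⟨r', rfl⟩ := exists_lift hφ r
  refine ⟨List.ofFn r', List.length_ofFn, ?_, ?_⟩
  · apply hφ.1
    rw [map_pow, map_neg, map_one, ← hr0, List.getD_eq_getElem _ _ (by rw [List.length_ofFn]; omega),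
      List.getElem_ofFn]
  · refine Simi.comm ?_ (comm_of_dvd_pow hN hr)
    refine ((simi_single _).trans (comp_simi_of_eq (g := List.ofFn r') (fun i => φ (r' i))
      List.length_ofFn fun i => ?_)).symm
    show φ ((List.ofFn r').get i) = _
    rw [List.get_ofFn]

/-- Cutting one block at a corner of size `d`, leaving at least three. -/
theorem red_cut (hφ : Function.Bijective φ) {g : List Z} {d : ℕ} (hd : 0 < d) (hg : d + 3 ≤ g.length)
    (hs : sgn g ≠ 0) : Red φ (prodP φ psQ) [g] [corner d g] := by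
  obtain ⟨r, hr, hr0, hR⟩ := exists_block hφ (show 3 ≤ g.length - d by omega)
  have hg0 : g.getD 0 0 ≠ 0 := fun e => hs (by rw [sgn, e, mul_zero])
  have hne : r.getD 0 0 ≠ 0 := by
    rw [hr0]
    rcases neg_one_pow_cases (g.length - d) with e | e <;> rw [e] <;> decide
  refine ⟨[r], hR, ?_⟩
  have h := udl_block (φ := φ) g r d (g.length - d) hd (by omega) (by omega) hr hg0 hne
  rw [hr0] at h
  exact h

end CfsgLib.OreOrth.Three
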