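import Cfsg.Agent.Lib.OreOrth.Three.Engine
import Cfsg.Agent.Lib.OreOrth.UTrick

/-!
Lists of companion blocks over the field with three elements: sums, reordering, and the reduction of a list to
its small corners.
-/

set_option autoImplicit false
set_option linter.unusedSectionVars false

namespace CfsgLib.OreOrth.Three

open Polynomial Module

variable {F : Type*} [Field F] (φ : Z →+* F)

/-- The coefficient vector over `F`. -/
def vecF (g : List Z) : Fin g.length → F := fun i => φ (g.get i)

/-- Similarity of endomorphisms. -/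
def Simi {V W : Type*} [AddCommGroup V] [Module F V] [AddCommGroup W] [Module F W] (T : End F V) (S : End F W) :
    Prop :=
  ∃ e : V ≃ₗ[F] W, e.conj T = S

section Simi

variable {U V W U' V' : Type*} [AddCommGroup U] [Module F U] [AddCommGroup V] [Module F V] [AddCommGroup W]
  [Module F W] [AddCommGroup U'] [Module F U'] [AddCommGroup V'] [Module F V']

theorem Simi.refl (T : End F V) : Simi T T := ⟨LinearEquiv.refl F V, LinearMap.ext fun _ => rfl⟩

theorem Simi.symm {T : End F V} {S : End F W} (h : Simi T S) : Simi S T := by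
  obtain ⟨e, rfl⟩ := h
  exact ⟨e.symm, LinearMap.ext fun x => by simp [LinearEquiv.conj_apply_apply]⟩

theorem Simi.trans {R : End F U} {T : End F V} {S : End F W} (h : Simi R T) (h' : Simi T S) : Simi R S := by
  obtain ⟨e, rfl⟩ := h
  obtain ⟨e', rfl⟩ := h'
  exact ⟨e.trans e', LinearMap.ext fun x => by simp [LinearEquiv.conj_apply_apply]⟩

theorem Simi.prodMap {R : End F U} {R' : End F U'} {T : End F V} {T' : End F V'} (h : Simi R R') (h' : Simi T T') :
    Simi (R.prodMap T) (R'.prodMap T') := by
  obtain ⟨e, rfl⟩ := h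
  obtain ⟨e', rfl⟩ := h'
  exact ⟨e.prodCongr e', LinearMap.ext fun x => by simp [LinearEquiv.conj_apply_apply]⟩

theorem simi_swap (R : End F U) (T : End F V) : Simi (R.prodMap T) (T.prodMap R) :=
  ⟨LinearEquiv.prodComm F U V, LinearMap.ext fun x => by simp [LinearEquiv.conj_apply_apply]⟩

theorem simi_assoc (R : End F U) (T : End F V) (S : End F W) :
    Simi ((R.prodMap T).prodMap S) (R.prodMap (T.prodMap S)) :=
  ⟨LinearEquiv.prodAssoc F U V W, LinearMap.ext fun _ => rfl⟩

theorem simi_nil (T : End F V) (R : End F U) [Subsingleton U] : Simi (R.prodMap T) T :=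
  ⟨{ toFun := fun p => p.2, invFun := fun v => (0, v), map_add' := fun _ _ => rfl, map_smul' := fun _ _ => rfl,
     left_inv := fun p => Prod.ext (Subsingleton.elim _ _) rfl, right_inv := fun _ => rfl },
    LinearMap.ext fun _ => rfl⟩

theorem Simi.comm {P : F[X]} {T : End F V} {S : End F W} (h : Simi T S) (hT : Comm P T) : Comm P S := by
  obtain ⟨e, rfl⟩ := h
  exact hT.map e

theorem simi_hasUDL {T : End F V} {T' : End F V'} {A : End F U} {A' : End F U'} {B : End F W}
    (hT : Simi T' T) (hA : Simi A A') (h : HasUDL T A B) : HasUDL T' A' B := by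
  obtain ⟨t, rfl⟩ := hT
  obtain ⟨a, rfl⟩ := hA
  obtain ⟨e, X, Y, he⟩ := h
  refine ⟨(t.trans e).trans (a.prodCongr (LinearEquiv.refl F W)), a.toLinearMap ∘ₗ X, Y ∘ₗ a.symm.toLinearMap, ?_⟩
  apply LinearMap.ext
  rintro ⟨x, y⟩
  have h' := LinearMap.congr_fun he (a.symm x, y)
  rw [udl_apply, LinearEquiv.conj_apply_apply] at h'
  rw [udl_apply, LinearEquiv.conj_apply_apply]
  simp only [LinearEquiv.conj_apply_apply] at h'
  simp [LinearEquiv.conj_apply_apply] at h' ⊢
  simp [h']

theorem simi_hasUDL_right {T : End F V} {A : End F U} {B : End F W} {B' : End F V'}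
    (hB : Simi B B') (h : HasUDL T A B) : HasUDL T A B' := by
  obtain ⟨b, rfl⟩ := hB
  obtain ⟨e, X, Y, he⟩ := h
  refine ⟨e.trans ((LinearEquiv.refl F U).prodCongr b), X ∘ₗ b.symm.toLinearMap, b.toLinearMap ∘ₗ Y, ?_⟩
  apply LinearMap.ext
  rintro ⟨x, y⟩
  have h' := LinearMap.congr_fun he (x, b.symm y)
  rw [udl_apply] at h'
  rw [udl_apply]
  simp [LinearEquiv.conj_apply_apply] at h' ⊢
  simp [h']

theorem comm_subsingleton (P : F[X]) [Subsingleton V] (T : End F V) : Comm P T :=
  ⟨1, 1, LinearMap.ext fun _ => Subsingleton.elim _ _, by simp, by simp, 0,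
    LinearMap.ext fun _ => Subsingleton.elim _ _⟩

theorem comm_of_dvd_pow {P Q : F[X]} {T : End F V} {N : ℕ} (hd : P ∣ Q ^ N) (hT : Comm P T) : Comm Q T := by
  obtain ⟨b, h, e, hb, hh, M, hM⟩ := hT.of_dvd hd
  exact ⟨b, h, e, hb, hh, N * M, by rw [pow_mul]; exact hM⟩

end Simi

theorem simi_cons (g : List Z) (L : List (List Z)) :
    Simi (tL φ (g :: L)) ((comp (vecF φ g)).prodMap (tL φ L)) := by
  let e : (Fin (g.length + dimL L) → F) ≃ₗ[F] (Fin g.length → F) × (Fin (dimL L) → F) :=
    (LinearEquiv.funCongrLeft F F finSumFinEquiv).trans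
      (LinearEquiv.sumArrowLequivProdArrow (Fin g.length) (Fin (dimL L)) F F)
  refine ⟨e, ?_⟩
  show e.conj (Matrix.toLin' ((bdM (g :: L)).map φ)) = _
  rw [bdM_cons, show vecF φ g = fun i => φ (g.get i) from rfl, ← toLin'_compM, ← compM_map, tL]
  refine LinearMap.ext fun x => ?_
  obtain ⟨x, y⟩ := x
  have hs : ∀ k : Fin g.length ⊕ Fin (dimL L), e.symm (x, y) (finSumFinEquiv k) = Sum.elim x y k := by
    intro k
    have h1 : e (e.symm (x, y)) = (x, y) := e.apply_symm_apply _
    rcases k with k | k
    · exact congrFun (congrArg Prod.fst h1) k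
    · exact congrFun (congrArg Prod.snd h1) k
  have key : ∀ k, (((blockM (compM g.get) (bdM L)).map φ).mulVec (e.symm (x, y))) (finSumFinEquiv k) =
      (Matrix.fromBlocks ((compM g.get).map φ) 0 0 ((bdM L).map φ)).mulVec (Sum.elim x y) k := by
    intro k
    rw [blockM_map, blockM, Matrix.reindex_apply, Matrix.submatrix_mulVec_equiv]
    simp only [Function.comp_apply, Equiv.symm_symm, Equiv.symm_apply_apply]
    rw [show e.symm (x, y) ∘ finSumFinEquiv = Sum.elim x y from _root_.funext hs]
  rw [LinearEquiv.conj_apply_apply]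
  show e (((blockM (compM g.get) (bdM L)).map φ).mulVec (e.symm (x, y))) =
    (((compM g.get).map φ).mulVec x, ((bdM L).map φ).mulVec y)
  refine Prod.ext (_root_.funext fun i => ?_) (_root_.funext fun i => ?_)
  · show ((blockM (compM g.get) (bdM L)).map φ).mulVec (e.symm (x, y)) (finSumFinEquiv (Sum.inl i)) = _
    rw [key, Matrix.fromBlocks_mulVec]
    simp
  · show ((blockM (compM g.get) (bdM L)).map φ).mulVec (e.symm (x, y)) (finSumFinEquiv (Sum.inr i)) = _
    rw [key, Matrix.fromBlocks_mulVec]
    simp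

theorem simi_append : ∀ L M : List (List Z), Simi (tL φ (L ++ M)) ((tL φ L).prodMap (tL φ M))
  | [], M => by
    have : Subsingleton (Fin (dimL ([] : List (List Z))) → F) := by
      show Subsingleton (Fin 0 → F)
      infer_instance
    exact (simi_nil _ _).symm
  | g :: L, M =>
    ((simi_cons φ g (L ++ M)).trans ((Simi.refl _).prodMap (simi_append L M))).trans
      ((simi_assoc _ _ _).symm.trans ((simi_cons φ g L).symm.prodMap (Simi.refl _)))

theorem simi_perm {L M : List (List Z)} (h : L.Perm M) : Simi (tL φ L) (tL φ M) := by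
  induction h with
  | nil => exact Simi.refl _
  | cons g _ ih => exact (simi_cons φ g _).trans (((Simi.refl _).prodMap ih).trans (simi_cons φ g _).symm)
  | swap a b L =>
    exact ((simi_cons φ b (a :: L)).trans ((Simi.refl _).prodMap (simi_cons φ a L))).trans
      ((((simi_assoc _ _ _).symm.trans ((simi_swap _ _).prodMap (Simi.refl _))).trans (simi_assoc _ _ _)).trans
        (((Simi.refl _).prodMap (simi_cons φ b L).symm).trans (simi_cons φ a (b :: L)).symm))
  | trans _ _ ih₁ ih₂ => exact ih₁.trans ih₂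

/-- The list of blocks is a commutator with polynomial `P`. -/
def OK (P : F[X]) (L : List (List Z)) : Prop := Comm P (tL φ L)

variable {φ}

theorem ok_nil (P : F[X]) : OK φ P [] := by
  have : Subsingleton (Fin (dimL ([] : List (List Z))) → F) := by
    show Subsingleton (Fin 0 → F)
    infer_instance
  exact comm_subsingleton P _

theorem OK.append {P : F[X]} {L M : List (List Z)} (hL : OK φ P L) (hM : OK φ P M) : OK φ P (L ++ M) :=
  (simi_append φ L M).symm.comm (hL.prodMap hM)

theorem OK.perm {P : F[X]} {L M : List (List Z)} (hL : OK φ P L) (h : L.Perm M) : OK φ P M :=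
  (simi_perm φ h).comm hL

theorem OK.of_dvd {P Q : F[X]} {L : List (List Z)} (hd : P ∣ Q) (hL : OK φ P L) : OK φ Q L :=
  Comm.of_dvd hd hL

variable (φ)

/-- `L` splits into a list accepted by `Q` and the list `D`. -/
def Red (Q : F[X]) (L D : List (List Z)) : Prop :=
  ∃ R : List (List Z), OK φ Q R ∧ HasUDL (tL φ L) (tL φ R) (tL φ D)

variable {φ}

theorem Red.keep (Q : F[X]) (L : List (List Z)) : Red φ Q L L := by
  refine ⟨[], ok_nil Q, ?_⟩
  have : Subsingleton (Fin (dimL ([] : List (List Z))) → F) := by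
    show Subsingleton (Fin 0 → F)
    infer_instance
  exact hasUDL_right _ _

theorem Red.append {Q : F[X]} {L L' D D' : List (List Z)} (h : Red φ Q L D) (h' : Red φ Q L' D') :
    Red φ Q (L ++ L') (D ++ D') := by
  obtain ⟨R, hR, hu⟩ := h
  obtain ⟨R', hR', hu'⟩ := h'
  exact ⟨R ++ R', hR.append hR', simi_hasUDL (simi_append φ L L') (simi_append φ R R').symm
    (simi_hasUDL_right (simi_append φ D D').symm (hu.prodMap hu'))⟩

/-- A list reducing to an accepted list is accepted by the product. -/
theorem Red.ok {P Q : F[X]} (hPQ : IsCoprime P Q) {L D : List (List Z)} (h : Red φ Q L D) (hD : OK φ P D) :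
    OK φ (P * Q) L := by
  obtain ⟨R, hR, hu⟩ := h
  rw [mul_comm]
  exact hu.comm hPQ.symm hR hD

theorem simi_cast {k k' : ℕ} (h : k = k') (c : Fin k' → F) : Simi (comp fun i => c (Fin.cast h i)) (comp c) := by
  subst h
  exact Simi.refl _

theorem simi_single (g : List Z) : Simi (tL φ [g]) (comp (vecF φ g)) := by
  have : Subsingleton (Fin (dimL ([] : List (List Z))) → F) := by
    show Subsingleton (Fin 0 → F)
    infer_instance
  exact ((simi_cons φ g []).trans (simi_swap _ _)).trans (simi_nil _ _)

theorem comp_simi_of_eq {g : List Z} {k : ℕ} (c : Fin k → F) (hk : g.length = k)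
    (hc : ∀ i : Fin g.length, φ (g.get i) = c (Fin.cast hk i)) : Simi (comp (vecF φ g)) (comp c) := by
  rw [show vecF φ g = fun i => c (Fin.cast hk i) from funext hc]
  exact simi_cast hk c

/-- One block splits into a free block and the corner with coefficients scaled by its constant. -/
theorem udl_block (g r : List Z) (d m : ℕ) (hd : 0 < d) (hm : 0 < m) (hg : g.length = d + m)
    (hr : r.length = m) (hg0 : g.getD 0 0 ≠ 0) (hr0 : r.getD 0 0 ≠ 0) :
    HasUDL (tL φ [g]) (tL φ [r]) (tL φ [(g.take d).map (· / r.getD 0 0)]) := by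
  let gF : Fin (d + m) → F := fun i => φ (g.getD i 0)
  let rF : Fin m → F := fun i => φ (r.getD i 0)
  have hg' : Simi (comp (vecF φ g)) (comp gF) :=
    comp_simi_of_eq gF hg fun i => by
      show φ _ = φ _
      congr 1
      simp [List.getD_eq_getElem?_getD]
  have hr' : Simi (comp (vecF φ r)) (comp rF) :=
    comp_simi_of_eq rF hr fun i => by
      show φ _ = φ _
      congr 1
      simp [List.getD_eq_getElem?_getD]
  have h := hasUDL_comp hd hm gF ((map_ne_zero φ).2 hg0) rF ((map_ne_zero φ).2 hr0)
  refine simi_hasUDL ((simi_single g).trans hg') (hr'.symm.trans (simi_single r).symm)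
    (simi_hasUDL_right ?_ h)
  refine Simi.trans ?_ (simi_single _).symm
  refine (comp_simi_of_eq (g := (g.take d).map (· / r.getD 0 0)) _ (by simp [hg]) fun i => ?_).symm
  have hi : (i : ℕ) < d := by
    have := i.isLt
    simp only [List.length_map, List.length_take] at this
    omega
  simp [gF, rF, List.getD_eq_getElem?_getD, hg, show (i : ℕ) < d + m by omega]

end CfsgLib.OreOrth.Three
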