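import Cfsg.Agent.Lib.OreOrth.Three.Parts
import Cfsg.Agent.Lib.OreOrth.Three.Admissible

/-!
The elementary groups of blocks over the field with three elements: singles, pairs, and the sums of small pieces.
-/

set_option autoImplicit false
set_option maxRecDepth 100000

namespace CfsgLib.OreOrth.Three

open Polynomial Module

variable {F : Type*} [Field F]

/-- Lists of blocks accepted by the full polynomial. -/
def OKA (φ : Z →+* F) (L : List (List Z)) : Prop := OK φ (prodP φ psP * prodP φ psQ) L

variable {φ : Z →+* F}

theorem OKA.of_P {L : List (List Z)} (h : OK φ (prodP φ psP) L) : OKA φ L := h.of_dvd (dvd_mul_right _ _)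

theorem oka_key {L : List (List Z)} (h : L ∈ keys) : OKA φ L := OKA.of_P (ok_key h)

theorem oka_red {L D : List (List Z)} (h : Red φ (prodP φ psQ) L D) (hD : OK φ (prodP φ psP) D) : OKA φ L :=
  h.ok (coprime_psP_psQ φ) hD

theorem keys_single {g : List Z} (hs : sgn g = 1) (h : g.length = 3 ∨ g.length = 4 ∨ g.length = 5) :
    [g] ∈ keys := by
  rcases h with h | h | h
  · exact forall_len 3 (p := fun g => sgn g = 1 → [g] ∈ keys) (by decide +kernel) g h hs
  · exact forall_len 4 (p := fun g => sgn g = 1 → [g] ∈ keys) (by decide +kernel) g h hs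
  · exact forall_len 5 (p := fun g => sgn g = 1 → [g] ∈ keys) (by decide +kernel) g h hs

theorem keys_neg_pair {g : List Z} (hs : sgn g = -1) (h : g.length = 2 ∨ g.length = 3 ∨ g.length = 4) :
    [g, neg] ∈ keys ∧ [g, g] ∈ keys := by
  rcases h with h | h | h
  · exact forall_len 2 (p := fun g => sgn g = -1 → [g, neg] ∈ keys ∧ [g, g] ∈ keys) (by decide +kernel) g h hs
  · exact forall_len 3 (p := fun g => sgn g = -1 → [g, neg] ∈ keys ∧ [g, g] ∈ keys) (by decide +kernel) g h hs
  · exact forall_len 4 (p := fun g => sgn g = -1 → [g, neg] ∈ keys ∧ [g, g] ∈ keys) (by decide +kernel) g h hs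

/-- A block of determinant one and size at least three. -/
theorem oka_single (hφ : Function.Bijective φ) {g : List Z} (hl : 3 ≤ g.length) (hs : sgn g = 1) :
    OKA φ [g] := by
  rcases le_or_gt g.length 5 with h | h
  · exact oka_key (keys_single hs (by omega))
  · refine oka_red (red_cut hφ (d := 3) (by omega) (by omega) (by rw [hs]; decide)) (ok_key ?_)
    exact keys_single ((sgn_corner (by omega) (by omega)).trans hs) (Or.inl (length_corner (by omega)))

theorem corner_one_neg {g : List Z} (hl : 1 ≤ g.length) (hs : sgn g = -1) : corner 1 g = neg :=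
  eq_neg_of_sgn (length_corner hl) ((sgn_corner one_pos hl).trans hs)

theorem corner_one_one {g : List Z} (hl : 1 ≤ g.length) (hs : sgn g = 1) : corner 1 g = one :=
  eq_one_of_sgn (length_corner hl) ((sgn_corner one_pos hl).trans hs)

/-- A block of determinant minus one with the block of `X + 1`. -/
theorem oka_neg (hφ : Function.Bijective φ) {g : List Z} (hl : 2 ≤ g.length) (hs : sgn g = -1) :
    OKA φ [g, neg] := by
  rcases le_or_gt g.length 4 with h | h
  · exact oka_key (keys_neg_pair hs (by omega)).1
  · have h1 := (red_cut (φ := φ) hφ (d := 2) (by omega) (by omega) (show sgn g ≠ 0 by rw [hs]; decide)).append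
      (Red.keep _ [neg])
    exact oka_red h1 (ok_key
      (keys_neg_pair ((sgn_corner (by omega) (by omega)).trans hs) (Or.inl (length_corner (by omega)))).1)

theorem keys_three_two {g h : List Z} (hg : g.length = 3) (hh : h.length = 2) (sg : sgn g = -1)
    (sh : sgn h = -1) : [g, h] ∈ keys := by
  have : ∀ g ∈ vecs 3, ∀ h ∈ vecs 2, sgn g = -1 → sgn h = -1 → [g, h] ∈ keys := by decide +kernel
  exact this g (hg ▸ mem_vecs g) h (hh ▸ mem_vecs h) sg sh

/-- Two blocks of determinant minus one. -/
theorem oka_pair (hφ : Function.Bijective φ) {g h : List Z} (hg : 2 ≤ g.length) (hh : 2 ≤ h.length)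
    (sg : sgn g = -1) (sh : sgn h = -1) (he : g.length = h.length → g = h) : OKA φ [g, h] := by
  wlog hle : h.length ≤ g.length generalizing g h with H
  · exact (H hh hg sh sg (fun e => (he e.symm).symm) (by omega)).perm (List.Perm.swap _ _ _)
  have ng : sgn g ≠ 0 := by rw [sg]; decide
  have nh : sgn h ≠ 0 := by rw [sh]; decide
  rcases le_or_gt 4 h.length with h4 | h4
  · rcases le_or_gt 5 g.length with g5 | g5
    · refine oka_red ((red_cut hφ (d := 2) (by omega) (by omega) ng).append
        (red_cut hφ (d := 1) one_pos (by omega) nh)) ?_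
      rw [corner_one_neg (by omega) sh]
      exact ok_key (keys_neg_pair ((sgn_corner (by omega) (by omega)).trans sg)
        (Or.inl (length_corner (by omega)))).1
    · obtain rfl := he (by omega)
      exact oka_key (keys_neg_pair sg (by omega)).2
  · rcases le_or_gt g.length h.length with hgh | hgh
    · obtain rfl := he (by omega)
      exact oka_key (keys_neg_pair sg (by omega)).2
    · rcases le_or_gt 4 g.length with g4 | g4
      · refine oka_red ((red_cut hφ (d := 1) one_pos (by omega) ng).append (Red.keep _ [h])) ?_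
        rw [corner_one_neg (by omega) sg]
        exact (ok_key (keys_neg_pair sh (by omega)).1).perm (List.Perm.swap _ _ _)
      · exact oka_key (keys_three_two (by omega) (by omega) sg sh)

/-- All pieces of one size are equal. -/
def Coh (L : List (List Z)) : Prop := ∀ g ∈ L, ∀ h ∈ L, g.length = h.length → g = h

theorem oka_singles (hφ : Function.Bijective φ) : ∀ {B : List (List Z)},
    (∀ g ∈ B, 3 ≤ g.length ∧ sgn g = 1) → OKA φ B
  | [], _ => ok_nil _
  | g :: B, h => by
    exact OK.append (L := [g]) (oka_single hφ (h g List.mem_cons_self).1 (h g List.mem_cons_self).2)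
      (oka_singles hφ fun x hx => h x (List.mem_cons_of_mem _ hx))

/-- Blocks of determinant minus one paired among themselves and with blocks of `X + 1`. -/
theorem oka_minus (hφ : Function.Bijective φ) : ∀ (M : List (List Z)) (e : ℕ), Coh M →
    (∀ g ∈ M, 2 ≤ g.length ∧ sgn g = -1) → e ≤ M.length → Even (M.length + e) →
      OKA φ (M ++ List.replicate e neg)
  | [], e, _, _, he, _ => by
    obtain rfl : e = 0 := by simpa using he
    exact ok_nil _
  | g :: M, e + 1, hc, hM, he, hpar => by
    have h := oka_minus hφ M e (fun a ha b hb => hc a (List.mem_cons_of_mem _ ha) b (List.mem_cons_of_mem _ hb))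
      (fun a ha => hM a (List.mem_cons_of_mem _ ha)) (by simpa using he) (by
        obtain ⟨k, hk⟩ := hpar
        exact ⟨k - 1, by simp at hk; omega⟩)
    refine (OK.append (L := [g, neg]) (oka_neg hφ (hM g List.mem_cons_self).1 (hM g List.mem_cons_self).2) h).perm
      ?_
    rw [List.cons_append, List.cons_append, List.nil_append, List.cons_append, List.replicate_succ]
    exact List.Perm.cons _ List.perm_middle.symm
  | [g], 0, _, _, _, hpar => by
    obtain ⟨k, hk⟩ := hpar
    simp at hk
    omega
  | g :: g' :: M, 0, hc, hM, _, hpar => by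
    have h := oka_minus hφ M 0 (fun a ha b hb => hc a (by simp [ha]) b (by simp [hb]))
      (fun a ha => hM a (by simp [ha])) (by simp) (by
        obtain ⟨k, hk⟩ := hpar
        exact ⟨k - 1, by simp at hk; omega⟩)
    simp only [List.replicate_zero, List.append_nil] at h ⊢
    exact OK.append (L := [g, g']) (oka_pair hφ (hM g (by simp)).1 (hM g' (by simp)).1 (hM g (by simp)).2
      (hM g' (by simp)).2 (hc g (by simp) g' (by simp))) h

/-- Minus the identity of even size at least six. -/
theorem oka_negs : ∀ r : ℕ, 6 ≤ r → Even r → OKA φ (List.replicate r neg) := by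
  intro r
  induction r using Nat.strong_induction_on with
  | _ r ih =>
    intro h6 hr
    rcases le_or_gt r 10 with h | h
    · obtain ⟨k, rfl⟩ := hr
      have : k = 3 ∨ k = 4 ∨ k = 5 := by omega
      rcases this with rfl | rfl | rfl <;> exact oka_key (by decide +kernel)
    · have e : List.replicate r neg = List.replicate 6 neg ++ List.replicate (r - 6) neg := by
        rw [← List.replicate_add]
        congr 1
        omega
      rw [e]
      exact OK.append (oka_key (by decide +kernel)) (ih (r - 6) (by omega) (by obtain ⟨k, rfl⟩ := hr; omega)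
        (by obtain ⟨k, rfl⟩ := hr; exact ⟨k - 3, by omega⟩))

/-- Facts read off the tables for a block of size two and determinant one. -/
theorem keys_two {g : List Z} (hl : g.length = 2) (hs : sgn g = 1) :
    ([g, g] ∈ keys ∧ [g, g, g] ∈ keys) ∧ (∀ r ∈ [2, 4, 6], g :: List.replicate r neg ∈ keys) ∧
      [g, g, neg, neg] ∈ keys ∧ (g ≠ J2 → ∀ e ∈ [1, 2, 3], g :: List.replicate e one ∈ keys) ∧
      (∀ e ∈ [1, 2], g :: g :: List.replicate e one ∈ keys ∧ g :: g :: g :: List.replicate e one ∈ keys) :=
  forall_len 2 (p := fun g => sgn g = 1 → ([g, g] ∈ keys ∧ [g, g, g] ∈ keys) ∧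
      (∀ r ∈ [2, 4, 6], g :: List.replicate r neg ∈ keys) ∧
      [g, g, neg, neg] ∈ keys ∧ (g ≠ J2 → ∀ e ∈ [1, 2, 3], g :: List.replicate e one ∈ keys) ∧
      (∀ e ∈ [1, 2], g :: g :: List.replicate e one ∈ keys ∧ g :: g :: g :: List.replicate e one ∈ keys))
    (by decide +kernel) g hl hs

/-- At least two equal blocks of size two. -/
theorem oka_twos {g : List Z} (hl : g.length = 2) (hs : sgn g = 1) :
    ∀ a : ℕ, 2 ≤ a → OKA φ (List.replicate a g) := by
  intro a
  induction a using Nat.strong_induction_on with
  | _ a ih =>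
    intro ha
    obtain ⟨⟨k2, k3⟩, -⟩ := keys_two hl hs
    obtain rfl | rfl | h : a = 2 ∨ a = 3 ∨ 4 ≤ a := by omega
    · exact oka_key k2
    · exact oka_key k3
    · rw [show a = 2 + (a - 2) by omega, List.replicate_add]
      exact OK.append (oka_key k2) (ih (a - 2) (by omega) (by omega))

/-- Blocks of size two with minus the identity. -/
theorem oka_twos_neg {g : List Z} (hl : g.length = 2) (hs : sgn g = 1) (a r : ℕ) (ha : 1 ≤ a) (hr : Even r)
    (hgood : 2 ≤ a ∨ 2 ≤ r) : OKA φ (List.replicate a g ++ List.replicate r neg) := by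
  obtain ⟨⟨k2, k3⟩, kn, knn, -⟩ := keys_two hl hs
  rcases eq_or_lt_of_le ha with rfl | ha2
  · have hr2 : 2 ≤ r := by omega
    rcases le_or_gt r 6 with h | h
    · obtain ⟨k, rfl⟩ := hr
      exact oka_key (kn _ (by simp; omega))
    · rw [show r = 2 + (r - 2) by omega, List.replicate_add, ← List.append_assoc]
      exact OK.append (oka_key (kn 2 (by simp))) (oka_negs _ (by obtain ⟨k, rfl⟩ := hr; omega)
        (by obtain ⟨k, rfl⟩ := hr; exact ⟨k - 1, by omega⟩))
  · obtain rfl | rfl | rfl | h : r = 0 ∨ r = 2 ∨ r = 4 ∨ 6 ≤ r := by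
      obtain ⟨k, rfl⟩ := hr
      omega
    · simpa using oka_twos (φ := φ) hl hs a ha2
    · rcases eq_or_lt_of_le (show 2 ≤ a from ha2) with rfl | h3
      · exact oka_key knn
      · rw [show a = (a - 1) + 1 by omega, List.replicate_add, List.append_assoc]
        exact OK.append (oka_twos hl hs _ (by omega)) (oka_key (kn 2 (by simp)))
    · rcases eq_or_lt_of_le (show 2 ≤ a from ha2) with rfl | h3
      · exact (OK.append (oka_key (φ := φ) (kn 2 (by simp))) (oka_key (kn 2 (by simp)))).perm
          (List.perm_iff_count.2 fun x => by simp [List.count_cons]; omega)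
      · rw [show a = (a - 1) + 1 by omega, List.replicate_add, List.append_assoc]
        exact OK.append (oka_twos hl hs _ (by omega)) (oka_key (kn 4 (by simp)))
    · exact OK.append (oka_twos hl hs a ha2) (oka_negs r h hr)

end CfsgLib.OreOrth.Three
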